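import Cfsg.Agent.H384.RC.KRule
import Cfsg.Agent.LieClassical.SLGen
import Cfsg.Prelude.Def_Classical

/-!
# S3510 part B, box BO: the orthogonal polarity in odd characteristic
-/

set_option autoImplicit false
set_option linter.unusedSectionVars false
set_option linter.unusedSimpArgs false

namespace Cfsg.Agent.H679.RC

open Matrix Cfsg
open scoped commutatorElement
open Cfsg.Agent.H106.RC Cfsg.Agent.H999.PslGraph Cfsg.Agent.H384.RC
open Cfsg.Agent.ClassicalGeometry.AutPSL.Auto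

variable {F : Type} [Field F] {ι : Type} [Fintype ι] [DecidableEq ι]

/-! ### bilinear algebra -/

theorem ext_mulVec {M N : Matrix ι ι F} (h : ∀ x, M *ᵥ x = N *ᵥ x) : M = N :=
  Matrix.ext_iff_mulVec.2 h

section bil

variable (B : Matrix ι ι F)

theorem bil_add_left (u v w : ι → F) : bil B (u + v) w = bil B u w + bil B v w := add_dotProduct _ _ _

theorem bil_sub_left (u v w : ι → F) : bil B (u - v) w = bil B u w - bil B v w := sub_dotProduct _ _ _

theorem bil_smul_left (c : F) (u w : ι → F) : bil B (c • u) w = c * bil B u w := by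
  rw [bil, bil, smul_dotProduct, smul_eq_mul]

theorem bil_neg_left (u w : ι → F) : bil B (-u) w = -bil B u w := neg_dotProduct _ _

theorem bil_add_right (u v w : ι → F) : bil B u (v + w) = bil B u v + bil B u w := by
  rw [bil, bil, bil, mulVec_add, dotProduct_add]

theorem bil_sub_right (u v w : ι → F) : bil B u (v - w) = bil B u v - bil B u w := by
  rw [bil, bil, bil, mulVec_sub, dotProduct_sub]

theorem bil_smul_right (c : F) (u w : ι → F) : bil B u (c • w) = c * bil B u w := by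
  rw [bil, bil, mulVec_smul, dotProduct_smul, smul_eq_mul]

theorem bil_neg_right (u w : ι → F) : bil B u (-w) = -bil B u w := by
  rw [bil, bil, mulVec_neg, dotProduct_neg]

variable {B}

theorem bil_comm (hB : Bᵀ = B) (u v : ι → F) : bil B u v = bil B v u := by
  rw [bil, bil, dotProduct_mulVec, dotProduct_comm, ← mulVec_transpose, hB]

end bil

/-- nondegeneracy -/
theorem bil_nd (B : GL ι F) {x : ι → F} (h : ∀ y, bil (B : Matrix ι ι F) x y = 0) : x = 0 := by
  have h1 : x ᵥ* (B : Matrix ι ι F) = 0 := by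
    funext i
    have := h (Pi.single i 1)
    rw [bil, dotProduct_mulVec, dotProduct_single, mul_one] at this
    exact this
  have h2 : x ᵥ* ((B : Matrix ι ι F) * ((B⁻¹ : GL ι F) : Matrix ι ι F)) = 0 := by
    rw [← vecMul_vecMul, h1, zero_vecMul]
  rwa [← Units.val_mul, mul_inv_cancel, Units.val_one, vecMul_one] at h2

/-- isometries -/
theorem mem_iso_iff (h2 : (2 : F) ≠ 0) {Q : (ι → F) → F} {B : Matrix ι ι F} (hB : Bᵀ = B)
    (hQ : ∀ v, bil B v v = 2 * Q v) (g : GL ι F) :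
    g ∈ isometryGroup F Q ↔ (g : Matrix ι ι F)ᵀ * B * g = B := by
  constructor
  · intro h
    have h1 : ∀ u, bil B ((g : Matrix ι ι F) *ᵥ u) ((g : Matrix ι ι F) *ᵥ u) = bil B u u := by
      intro u
      rw [hQ, hQ]
      congr 1
      exact h u u
    apply bil_ext
    intro u v
    rw [← bil_mulVec]
    have h3 := h1 (u + v)
    rw [mulVec_add] at h3
    simp only [bil_add_left, bil_add_right] at h3
    rw [h1 u, h1 v, bil_comm hB ((g : Matrix ι ι F) *ᵥ v), bil_comm hB v u] at h3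
    have h4 : 2 * bil B ((g : Matrix ι ι F) *ᵥ u) ((g : Matrix ι ι F) *ᵥ v) = 2 * bil B u v := by
      linear_combination h3
    exact mul_left_cancel₀ h2 h4
  · intro h u v
    show Q ((g : Matrix ι ι F) *ᵥ u) = Q u
    apply mul_left_cancel₀ h2
    rw [← hQ, ← hQ, bil_mulVec, h]

/-- an invertible matrix from an isometry -/
def isoGL (B : GL ι F) (M : Matrix ι ι F) (h : Mᵀ * (B : Matrix ι ι F) * M = B) : GL ι F :=
  have e : (((B⁻¹ : GL ι F) : Matrix ι ι F) * Mᵀ * (B : Matrix ι ι F)) * M = 1 := by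
    rw [Matrix.mul_assoc, Matrix.mul_assoc, ← Matrix.mul_assoc Mᵀ, h, ← Units.val_mul, inv_mul_cancel,
      Units.val_one]
  ⟨M, ((B⁻¹ : GL ι F) : Matrix ι ι F) * Mᵀ * (B : Matrix ι ι F), mul_eq_one_comm.1 e, e⟩

theorem coe_isoGL (B : GL ι F) (M : Matrix ι ι F) (h : Mᵀ * (B : Matrix ι ι F) * M = B) :
    (isoGL B M h : Matrix ι ι F) = M := rfl

/-! ### Siegel transformations -/

/-- `x ↦ x + b(x,e) w - b(x,w) e - q b(x,e) e` -/
def Sg (B : Matrix ι ι F) (q : F) (e w : ι → F) : Matrix ι ι F :=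
  1 + vecMulVec w (B *ᵥ e) - vecMulVec e (B *ᵥ w) - q • vecMulVec e (B *ᵥ e)

theorem vmv (B : Matrix ι ι F) (u v x : ι → F) : vecMulVec u (B *ᵥ v) *ᵥ x = bil B x v • u := by
  rw [vecMulVec_mulVec]
  funext i
  rw [bil, dotProduct_comm x]
  simp [mul_comm]

theorem Sg_mulVec (B : Matrix ι ι F) (q : F) (e w x : ι → F) :
    Sg B q e w *ᵥ x = x + bil B x e • w - bil B x w • e - (q * bil B x e) • e := by
  rw [Sg, sub_mulVec, sub_mulVec, add_mulVec, one_mulVec, smul_mulVec, vmv, vmv, vmv, smul_smul]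

theorem Sg_iso {B : Matrix ι ι F} (hB : Bᵀ = B) {q : F} {e w : ι → F} (he : bil B e e = 0)
    (hew : bil B e w = 0) (hq : bil B w w = 2 * q) : (Sg B q e w)ᵀ * B * Sg B q e w = B := by
  have hwe : bil B w e = 0 := by rw [bil_comm hB, hew]
  apply bil_ext
  intro u v
  rw [← bil_mulVec, Sg_mulVec, Sg_mulVec]
  simp only [bil_add_left, bil_add_right, bil_sub_left, bil_sub_right, bil_smul_left, bil_smul_right, he, hew,
    hwe, hq]
  rw [bil_comm hB e v, bil_comm hB w v]
  ring

theorem Sg_nilp {B : Matrix ι ι F} (hB : Bᵀ = B) {q : F} {e w : ι → F} (he : bil B e e = 0)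
    (hew : bil B e w = 0) (hq : bil B w w = 2 * q) : IsNilpotent (Sg B q e w - 1) := by
  have hwe : bil B w e = 0 := by rw [bil_comm hB, hew]
  have h1 : ∀ x, (Sg B q e w - 1) *ᵥ x = bil B x e • w - bil B x w • e - (q * bil B x e) • e := by
    intro x
    rw [sub_mulVec, Sg_mulVec, one_mulVec]
    abel
  refine ⟨3, ext_mulVec fun x => ?_⟩
  rw [pow_succ, pow_two, ← mulVec_mulVec, ← mulVec_mulVec, h1, h1, h1, zero_mulVec]
  simp only [bil_add_left, bil_add_right, bil_sub_left, bil_sub_right, bil_smul_left, bil_smul_right, he, hew,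
    hwe, hq]
  simp

/-- the product of Siegel transformations -/
theorem Sg_mul {B : Matrix ι ι F} (hB : Bᵀ = B) {q q' q'' : F} {e w w' : ι → F} (he : bil B e e = 0)
    (hew : bil B e w = 0) (hew' : bil B e w' = 0) (hq : q'' = q + q' + bil B w w') :
    Sg B q e w * Sg B q' e w' = Sg B q'' e (w + w') := by
  have hwe : bil B w e = 0 := by rw [bil_comm hB, hew]
  have hwe' : bil B w' e = 0 := by rw [bil_comm hB, hew']
  have hww : bil B w' w = bil B w w' := bil_comm hB _ _
  apply ext_mulVec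
  intro x
  rw [← mulVec_mulVec, Sg_mulVec, Sg_mulVec, Sg_mulVec]
  simp only [bil_add_left, bil_add_right, bil_sub_left, bil_sub_right, bil_smul_left, bil_smul_right, he, hew,
    hwe, hwe', hq, hew', hww]
  module

/-- `-1` on the hyperbolic plane -/
def Dm (B : Matrix ι ι F) (e f : ι → F) : Matrix ι ι F :=
  1 - (2 : F) • vecMulVec e (B *ᵥ f) - (2 : F) • vecMulVec f (B *ᵥ e)

theorem Dm_mulVec (B : Matrix ι ι F) (e f x : ι → F) :
    Dm B e f *ᵥ x = x - (2 * bil B x f) • e - (2 * bil B x e) • f := by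
  rw [Dm, sub_mulVec, sub_mulVec, one_mulVec, smul_mulVec, smul_mulVec, vmv, vmv, smul_smul, smul_smul]

theorem Dm_iso {B : Matrix ι ι F} (hB : Bᵀ = B) {e f : ι → F} (he : bil B e e = 0) (hf : bil B f f = 0)
    (hef : bil B e f = 1) : (Dm B e f)ᵀ * B * Dm B e f = B := by
  have hfe : bil B f e = 1 := by rw [bil_comm hB, hef]
  apply bil_ext
  intro u v
  rw [← bil_mulVec, Dm_mulVec, Dm_mulVec]
  simp only [bil_add_left, bil_add_right, bil_sub_left, bil_sub_right, bil_smul_left, bil_smul_right, he, hf,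
    hef, hfe]
  rw [bil_comm hB e v, bil_comm hB f v]
  ring

theorem Dm_Sg {B : Matrix ι ι F} (hB : Bᵀ = B) {q : F} {e f w : ι → F} (he : bil B e e = 0)
    (_hf : bil B f f = 0) (hef : bil B e f = 1) (hew : bil B e w = 0) (hfw : bil B f w = 0)
    (hq : bil B w w = 2 * q) :
    Dm B e f * Sg B q e w = Sg B (4 * q) e ((-2 : F) • w) * Sg B q e w * Dm B e f := by
  have hfe : bil B f e = 1 := by rw [bil_comm hB, hef]
  have hwe : bil B w e = 0 := by rw [bil_comm hB, hew]
  have hwf : bil B w f = 0 := by rw [bil_comm hB, hfw]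
  apply ext_mulVec
  intro x
  rw [← mulVec_mulVec, ← mulVec_mulVec, ← mulVec_mulVec, Sg_mulVec, Sg_mulVec, Sg_mulVec, Dm_mulVec, Dm_mulVec]
  simp only [bil_add_left, bil_add_right, bil_sub_left, bil_sub_right, bil_smul_left, bil_smul_right, he, hew,
    hwe, hq, hef, hfe, hfw, hwf]
  module

/-! ### the homomorphism `GL_2 → GL` on a nondegenerate plane -/

/-- `1 + P (M - 1) N`, `N P = 1` -/
def Phi (P : Matrix ι (Fin 2) F) (N : Matrix (Fin 2) ι F) (h : N * P = 1) :
    Matrix (Fin 2) (Fin 2) F →* Matrix ι ι F where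
  toFun M := 1 + P * (M - 1) * N
  map_one' := by simp
  map_mul' M M' := by
    have e : P * (M - 1) * N * (P * (M' - 1) * N) = P * ((M - 1) * (M' - 1)) * N := by
      calc P * (M - 1) * N * (P * (M' - 1) * N) = P * (M - 1) * (N * P) * (M' - 1) * N := by
            simp only [Matrix.mul_assoc]
        _ = _ := by rw [h, Matrix.mul_one]; simp only [Matrix.mul_assoc]
    rw [add_mul, one_mul, mul_add, mul_one, e]
    have e2 : M * M' - 1 = (M' - 1) + ((M - 1) + (M - 1) * (M' - 1)) := by noncomm_ring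
    rw [e2, Matrix.mul_add, Matrix.mul_add, Matrix.add_mul, Matrix.add_mul]
    abel

theorem Phi_apply (P : Matrix ι (Fin 2) F) (N : Matrix (Fin 2) ι F) (h : N * P = 1)
    (M : Matrix (Fin 2) (Fin 2) F) : Phi P N h M = 1 + P * (M - 1) * N := rfl

theorem Phi_det (P : Matrix ι (Fin 2) F) (N : Matrix (Fin 2) ι F) (h : N * P = 1)
    (M : Matrix (Fin 2) (Fin 2) F) : (Phi P N h M).det = M.det := by
  rw [Phi_apply, Matrix.mul_assoc, det_one_add_mul_comm, Matrix.mul_assoc, h, Matrix.mul_one]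
  congr 1
  abel

theorem Phi_tr {P : Matrix ι (Fin 2) F} {N : Matrix (Fin 2) ι F} (h : N * P = 1) {B : Matrix ι ι F}
    (hB : Bᵀ = B) {c : F} (hN : N = c • (Pᵀ * B)) (M : Matrix (Fin 2) (Fin 2) F) :
    (Phi P N h M)ᵀ * B = B * Phi P N h Mᵀ := by
  rw [Phi_apply, Phi_apply, transpose_add, transpose_one, transpose_mul, transpose_mul, transpose_sub,
    transpose_one, hN, transpose_smul, transpose_mul, transpose_transpose, hB, add_mul, one_mul, mul_add, mul_one]
  congr 1
  simp only [Matrix.mul_smul, Matrix.smul_mul, Matrix.mul_assoc]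

theorem Phi_iso {P : Matrix ι (Fin 2) F} {N : Matrix (Fin 2) ι F} (h : N * P = 1) {B : Matrix ι ι F}
    (hB : Bᵀ = B) {c : F} (hN : N = c • (Pᵀ * B)) (M : Matrix (Fin 2) (Fin 2) F) (hM : Mᵀ * M = 1) :
    (Phi P N h M)ᵀ * B * Phi P N h M = B := by
  rw [Phi_tr h hB hN, Matrix.mul_assoc, ← map_mul, hM, map_one, Matrix.mul_one]

/-! ### elements of `Ω` -/

section om

variable {Q : (ι → F) → F} (B : GL ι F)

theorem exists_Sg_mem (h2 : (2 : F) ≠ 0) (hB : (B : Matrix ι ι F)ᵀ = B) (hQ : ∀ v, bil (B : Matrix ι ι F) v v = 2 * Q v)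
    {e f w : ι → F} (he : bil (B : Matrix ι ι F) e e = 0) (hf : bil (B : Matrix ι ι F) f f = 0)
    (hef : bil (B : Matrix ι ι F) e f = 1) (hew : bil (B : Matrix ι ι F) e w = 0)
    (hfw : bil (B : Matrix ι ι F) f w = 0) :
    ∃ k : Omega F Q, (((k : isometryGroup F Q) : GL ι F) : Matrix ι ι F) = Sg (B : Matrix ι ι F) (Q w) e w := by
  set w' : ι → F := (-(2 : F)⁻¹) • w with hw'
  have hew' : bil (B : Matrix ι ι F) e w' = 0 := by rw [hw', bil_smul_right, hew, mul_zero]
  have hfw' : bil (B : Matrix ι ι F) f w' = 0 := by rw [hw', bil_smul_right, hfw, mul_zero]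
  have hd := Dm_iso hB he hf hef
  have hs := Sg_iso hB he hew' (hQ w')
  have hd' : isoGL B _ hd ∈ isometryGroup F Q := (mem_iso_iff h2 hB hQ _).2 hd
  have hs' : isoGL B _ hs ∈ isometryGroup F Q := (mem_iso_iff h2 hB hQ _).2 hs
  let d : isometryGroup F Q := ⟨_, hd'⟩
  let s : isometryGroup F Q := ⟨_, hs'⟩
  refine ⟨⟨⁅d, s⁆, Subgroup.commutator_mem_commutator (Subgroup.mem_top d) (Subgroup.mem_top s)⟩, ?_⟩
  have hq : 4 * Q w' = Q w := by
    apply mul_left_cancel₀ h2
    have h1 : 2 * (4 * Q w') = 4 * (2 * Q w') := by ring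
    rw [h1, ← hQ, ← hQ, hw', bil_smul_left, bil_smul_right]
    field_simp
    ring
  have hww : (-2 : F) • w' = w := by
    rw [hw', smul_smul]
    have : (-2 : F) * -(2 : F)⁻¹ = 1 := by field_simp
    rw [this, one_smul]
  have h1 := Dm_Sg hB he hf hef hew' hfw' (hQ w')
  rw [hq, hww] at h1
  -- the matrix of the commutator
  have hs'' := Sg_iso hB he hew (hQ w)
  have h3 : isoGL B _ hd * isoGL B _ hs = isoGL B _ hs'' * isoGL B _ hs * isoGL B _ hd := Units.ext h1
  have h4 : isoGL B _ hd * isoGL B _ hs * (isoGL B _ hd)⁻¹ * (isoGL B _ hs)⁻¹ = isoGL B _ hs'' := by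
    rw [h3]
    group
  exact congrArg Units.val h4

end om

/-! ### semilinear maps commuting with the Siegel transformations -/

section cent

variable (B : GL ι F)

/-- the common fixed vectors of the `S_{e,w}` -/
theorem fixed_line {Q : (ι → F) → F} (hB : (B : Matrix ι ι F)ᵀ = B) {e f w₀ x : ι → F}
    (he : bil (B : Matrix ι ι F) e e = 0) (hf : bil (B : Matrix ι ι F) f f = 0)
    (hef : bil (B : Matrix ι ι F) e f = 1) (hw₀ : w₀ ≠ 0) (h0e : bil (B : Matrix ι ι F) e w₀ = 0)
    (h0f : bil (B : Matrix ι ι F) f w₀ = 0)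
    (h : ∀ w, bil (B : Matrix ι ι F) e w = 0 → bil (B : Matrix ι ι F) f w = 0 →
      Sg (B : Matrix ι ι F) (Q w) e w *ᵥ x = x) : x = bil (B : Matrix ι ι F) x f • e := by
  have hfe : bil (B : Matrix ι ι F) f e = 1 := by rw [bil_comm hB, hef]
  have h1 : ∀ w, bil (B : Matrix ι ι F) e w = 0 → bil (B : Matrix ι ι F) f w = 0 →
      bil (B : Matrix ι ι F) x e • w = (bil (B : Matrix ι ι F) x w + Q w * bil (B : Matrix ι ι F) x e) • e := by
    intro w hw hw'
    have h2 := h w hw hw'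
    rw [Sg_mulVec] at h2
    have h3 := congrArg (fun y => y - x) h2
    simp only [sub_self] at h3
    rw [← sub_eq_zero, ← h3]
    module
  have h2 : ∀ w, bil (B : Matrix ι ι F) e w = 0 → bil (B : Matrix ι ι F) f w = 0 →
      bil (B : Matrix ι ι F) x w + Q w * bil (B : Matrix ι ι F) x e = 0 := by
    intro w hw hw'
    have h3 := congrArg (bil (B : Matrix ι ι F) f) (h1 w hw hw')
    rw [bil_smul_right, bil_smul_right, hw', hfe, mul_zero, mul_one] at h3
    exact h3.symm
  have hxe : bil (B : Matrix ι ι F) x e = 0 := by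
    have h3 := h1 w₀ h0e h0f
    rw [h2 w₀ h0e h0f, zero_smul] at h3
    exact (smul_eq_zero.1 h3).resolve_right hw₀
  have hxw : ∀ w, bil (B : Matrix ι ι F) e w = 0 → bil (B : Matrix ι ι F) f w = 0 →
      bil (B : Matrix ι ι F) x w = 0 := by
    intro w hw hw'
    have h3 := h2 w hw hw'
    rwa [hxe, mul_zero, add_zero] at h3
  rw [← sub_eq_zero]
  apply bil_nd B
  intro y
  set w := y - bil (B : Matrix ι ι F) y f • e - bil (B : Matrix ι ι F) y e • f with hw
  have hwe : bil (B : Matrix ι ι F) e w = 0 := by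
    rw [hw]
    simp only [bil_sub_right, bil_smul_right, he, hef]
    rw [bil_comm hB e y]
    ring
  have hwf : bil (B : Matrix ι ι F) f w = 0 := by
    rw [hw]
    simp only [bil_sub_right, bil_smul_right, hf, hfe]
    rw [bil_comm hB f y]
    ring
  have hy : y = w + bil (B : Matrix ι ι F) y f • e + bil (B : Matrix ι ι F) y e • f := by
    rw [hw]; abel
  rw [hy]
  simp only [bil_add_right, bil_sub_left, bil_smul_left, bil_smul_right, hxw w hwe hwf, hxe, hwe, he, hef]
  ring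

theorem cent_main {Q : (ι → F) → F} (hB : (B : Matrix ι ι F)ᵀ = B) {e f w₀ : ι → F}
    (he : bil (B : Matrix ι ι F) e e = 0) (hf : bil (B : Matrix ι ι F) f f = 0)
    (hef : bil (B : Matrix ι ι F) e f = 1) (hw₀ : w₀ ≠ 0) (h0e : bil (B : Matrix ι ι F) e w₀ = 0)
    (h0f : bil (B : Matrix ι ι F) f w₀ = 0) (A : GL ι F) (σ : F ≃+* F)
    (h1 : ∀ w, bil (B : Matrix ι ι F) e w = 0 → bil (B : Matrix ι ι F) f w = 0 →
      (A : Matrix ι ι F) * (Sg (B : Matrix ι ι F) (Q w) e w).map σ = Sg (B : Matrix ι ι F) (Q w) e w * A)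
    (h2 : ∀ w, bil (B : Matrix ι ι F) e w = 0 → bil (B : Matrix ι ι F) f w = 0 →
      (A : Matrix ι ι F) * (Sg (B : Matrix ι ι F) (Q w) f w).map σ = Sg (B : Matrix ι ι F) (Q w) f w * A) :
    σ = RingEquiv.refl F ∧ ∃ c : F, (A : Matrix ι ι F) = c • (1 : Matrix ι ι F) := by
  have hfe : bil (B : Matrix ι ι F) f e = 1 := by rw [bil_comm hB, hef]
  -- the semilinear map
  set a : (ι → F) → (ι → F) := fun v => (A : Matrix ι ι F) *ᵥ (fun i => σ (v i)) with ha
  have a_add : ∀ u v, a (u + v) = a u + a v := by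
    intro u v
    rw [ha]
    simp only
    rw [← mulVec_add]
    congr 1
    funext i
    simp
  have a_smul : ∀ (c : F) v, a (c • v) = σ c • a v := by
    intro c v
    rw [ha]
    simp only
    rw [← mulVec_smul]
    congr 1
    funext i
    simp
  have a_sub : ∀ u v, a (u - v) = a u - a v := by
    intro u v
    have h3 : u - v = u + (-1 : F) • v := by rw [neg_one_smul, sub_eq_add_neg]
    rw [h3, a_add, a_smul, map_neg, map_one, neg_one_smul, sub_eq_add_neg]
  have a_mul : ∀ (M : Matrix ι ι F), (A : Matrix ι ι F) * M.map σ = M * A → ∀ v, a (M *ᵥ v) = M *ᵥ a v := by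
    intro M hM v
    rw [ha]
    simp only
    have h3 : (fun i => σ ((M *ᵥ v) i)) = M.map σ *ᵥ (fun i => σ (v i)) := by
      funext i
      exact RingHom.map_mulVec (σ : F →+* F) M v i
    rw [h3, mulVec_mulVec, hM, ← mulVec_mulVec]
  have a_inj : ∀ v, a v = 0 → v = 0 := by
    intro v hv
    have h3 := congrArg (fun y => ((A⁻¹ : GL ι F) : Matrix ι ι F) *ᵥ y) hv
    simp only [ha] at h3
    rw [mulVec_mulVec, ← Units.val_mul, inv_mul_cancel, Units.val_one, one_mulVec, mulVec_zero] at h3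
    funext i
    have h4 := congrFun h3 i
    simp only [Pi.zero_apply] at h4 ⊢
    exact (map_eq_zero_iff σ σ.injective).1 h4
  -- `a e` and `a f`
  have hae : a e = bil (B : Matrix ι ι F) (a e) f • e := by
    apply fixed_line B (Q := Q) hB he hf hef hw₀ h0e h0f
    intro w hw hw'
    rw [← a_mul _ (h1 w hw hw'), Sg_mulVec, he, hw]
    simp
  have haf : a f = bil (B : Matrix ι ι F) (a f) e • f := by
    apply fixed_line B (Q := Q) hB hf he hfe hw₀ h0f h0e
    intro w hw hw'
    rw [← a_mul _ (h2 w hw' hw), Sg_mulVec, hf, hw]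
    simp
  set ε := bil (B : Matrix ι ι F) (a e) f with hε
  set φ := bil (B : Matrix ι ι F) (a f) e with hφ
  have hw1 : ∀ w, bil (B : Matrix ι ι F) e w = 0 → bil (B : Matrix ι ι F) f w = 0 →
      a w = φ • w + (σ (Q w) * ε - φ * Q w) • e := by
    intro w hw hw'
    have h3 := a_mul _ (h1 w hw hw') f
    rw [Sg_mulVec, hfe, hw', haf] at h3
    rw [mulVec_smul, Sg_mulVec, hfe, hw', one_smul, zero_smul, sub_zero, mul_one, a_sub, a_add, a_smul, haf,
      hae] at h3
    have h4 : a w = (φ • f + a w - σ (Q w) • ε • e) - φ • f + σ (Q w) • ε • e := by abel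
    rw [h4, h3]
    module
  have hw2 : ∀ w, bil (B : Matrix ι ι F) e w = 0 → bil (B : Matrix ι ι F) f w = 0 →
      a w = ε • w + (σ (Q w) * φ - ε * Q w) • f := by
    intro w hw hw'
    have h3 := a_mul _ (h2 w hw hw') e
    rw [Sg_mulVec, hef, hw, hae] at h3
    rw [mulVec_smul, Sg_mulVec, hef, hw, one_smul, zero_smul, sub_zero, mul_one, a_sub, a_add, a_smul, haf,
      hae] at h3
    have h4 : a w = (ε • e + a w - σ (Q w) • φ • f) - ε • e + σ (Q w) • φ • f := by abel
    rw [h4, h3]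
    module
  have hw3 : ∀ w, bil (B : Matrix ι ι F) e w = 0 → bil (B : Matrix ι ι F) f w = 0 → a w = φ • w := by
    intro w hw hw'
    have h3 := hw1 w hw hw'
    have h4 := hw2 w hw hw'
    have h5 := congrArg (bil (B : Matrix ι ι F) f) (h3.symm.trans h4)
    simp only [bil_add_right, bil_smul_right, hw', hfe, hf, mul_zero, mul_one, zero_add, add_zero] at h5
    rw [h3, h5, zero_smul, add_zero]
  have hw4 : ∀ w, bil (B : Matrix ι ι F) e w = 0 → bil (B : Matrix ι ι F) f w = 0 → a w = ε • w := by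
    intro w hw hw'
    have h3 := hw1 w hw hw'
    have h4 := hw2 w hw hw'
    have h5 := congrArg (bil (B : Matrix ι ι F) e) (h3.symm.trans h4)
    simp only [bil_add_right, bil_smul_right, hw, hef, he, mul_zero, mul_one, zero_add, add_zero] at h5
    rw [h4, ← h5, zero_smul, add_zero]
  have hεφ : ε = φ := by
    have h3 : (ε - φ) • w₀ = 0 := by
      rw [sub_smul, ← hw3 w₀ h0e h0f, ← hw4 w₀ h0e h0f, sub_self]
    exact sub_eq_zero.1 ((smul_eq_zero.1 h3).resolve_right hw₀)
  have hφ0 : φ ≠ 0 := by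
    intro h3
    apply hw₀
    apply a_inj
    rw [hw3 w₀ h0e h0f, h3, zero_smul]
  have hσ : σ = RingEquiv.refl F := by
    apply RingEquiv.ext
    intro c
    have h3 := hw3 (c • w₀) (by rw [bil_smul_right, h0e, mul_zero]) (by rw [bil_smul_right, h0f, mul_zero])
    rw [a_smul, hw3 w₀ h0e h0f, smul_smul, smul_smul] at h3
    have h4 : (σ c * φ - φ * c) • w₀ = 0 := by rw [sub_smul, h3, sub_self]
    have h5 := (smul_eq_zero.1 h4).resolve_right hw₀
    have h6 : φ * (σ c - c) = 0 := by linear_combination h5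
    have h7 := (mul_eq_zero.1 h6).resolve_left hφ0
    exact sub_eq_zero.1 h7
  refine ⟨hσ, φ, ext_mulVec fun y => ?_⟩
  have hay : a y = (A : Matrix ι ι F) *ᵥ y := by
    rw [ha, hσ]
    rfl
  rw [← hay, smul_mulVec, one_mulVec]
  set w := y - bil (B : Matrix ι ι F) y f • e - bil (B : Matrix ι ι F) y e • f with hw
  have hwe : bil (B : Matrix ι ι F) e w = 0 := by
    rw [hw]
    simp only [bil_sub_right, bil_smul_right, he, hef]
    rw [bil_comm hB e y]
    ring
  have hwf : bil (B : Matrix ι ι F) f w = 0 := by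
    rw [hw]
    simp only [bil_sub_right, bil_smul_right, hf, hfe]
    rw [bil_comm hB f y]
    ring
  have hy : y = w + bil (B : Matrix ι ι F) y f • e + bil (B : Matrix ι ι F) y e • f := by
    rw [hw]; abel
  have hy' : a y = a w + a (bil (B : Matrix ι ι F) y f • e) + a (bil (B : Matrix ι ι F) y e • f) := by
    conv_lhs => rw [hy]
    rw [a_add, a_add]
  rw [hy', hw3 w hwe hwf, a_smul, a_smul, haf, hae, hεφ, hσ]
  conv_rhs => rw [hy]
  simp only [RingEquiv.refl_apply]
  module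

end cent

/-! ### a square root of the square root of `-1` -/

theorem exists_sq_add_sq {F : Type} [Field F] [Fintype F] (h2 : (2 : F) ≠ 0) (x : F) :
    ∃ a b : F, a ^ 2 + b ^ 2 = x := by
  have hodd : Fintype.card F % 2 = 1 := by
    apply FiniteField.odd_card_of_char_ne_two
    intro h
    apply h2
    have h3 := (ringChar.spec F 2).2 (by rw [h])
    exact_mod_cast h3
  obtain ⟨a, b, hab⟩ := FiniteField.exists_root_sum_quadratic (f := (Polynomial.X ^ 2 : Polynomial F))
    (g := Polynomial.X ^ 2 - Polynomial.C x) (Polynomial.degree_X_pow 2)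
    (Polynomial.degree_X_pow_sub_C (by decide) _) hodd
  refine ⟨a, b, ?_⟩
  rw [← sub_eq_zero]
  simpa only [Polynomial.eval_C, Polynomial.eval_X, Polynomial.eval_pow, Polynomial.eval_sub,
    ← add_sub_assoc] using hab

theorem exists_s {F : Type} [Field F] [Fintype F] (h2 : (2 : F) ≠ 0) :
    ∃ s : Matrix (Fin 2) (Fin 2) F, s.det = 1 ∧ s * sᵀ * (s * sᵀ) = -1 := by
  obtain ⟨x, y, hxy, hx⟩ : ∃ x y : F, x ^ 2 + y ^ 2 = -1 ∧ x ≠ 0 := by
    obtain ⟨x, y, hxy⟩ := exists_sq_add_sq h2 (-1)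
    by_cases hx : x = 0
    · refine ⟨y, x, by rw [add_comm]; exact hxy, ?_⟩
      rintro rfl
      rw [hx] at hxy
      norm_num at hxy
    · exact ⟨x, y, hxy, hx⟩
  obtain ⟨p, r, hpr⟩ := exists_sq_add_sq h2 x
  refine ⟨!![p, r; (y * p - r) / x, (y * r + p) / x], ?_, ?_⟩
  · rw [det_fin_two_of]
    field_simp
    linear_combination hpr
  · have h1 : !![p, r; (y * p - r) / x, (y * r + p) / x] * !![p, r; (y * p - r) / x, (y * r + p) / x]ᵀ =
        !![x, y; y, -x] := by
      ext i j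
      fin_cases i <;> fin_cases j <;> simp [Matrix.mul_apply, Fin.sum_univ_two]
      · linear_combination hpr
      · field_simp
        linear_combination y * hpr
      · field_simp
        linear_combination y * hpr
      · field_simp
        linear_combination (y ^ 2 + 1) * hpr + x * hxy
    rw [h1]
    ext i j
    fin_cases i <;> fin_cases j <;> simp [Matrix.mul_apply, Fin.sum_univ_two]
    · linear_combination hxy
    · ring
    · ring
    · linear_combination hxy

/-! ### the theorem -/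

/-- the map from `Ω` to the automorphism group of `PSL` -/
noncomputable def fO (F : Type) [Field F] {ι : Type} [Fintype ι] [DecidableEq ι] (Q : (ι → F) → F) :
    Omega F Q →* MulAut (Matrix.ProjectiveSpecialLinearGroup ι F) :=
  (Cj : GL ι F →* _).comp ((isometryGroup F Q).subtype.comp (Omega F Q).subtype)

theorem fO_apply (Q : (ι → F) → F) (k : Omega F Q) : fO F Q k = Cj ((k : isometryGroup F Q) : GL ι F) := rfl

theorem det_omega (Q : (ι → F) → F) (k : Omega F Q) :
    (((k : isometryGroup F Q) : GL ι F) : Matrix ι ι F).det = 1 := by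
  let φ : isometryGroup F Q →* Fˣ := (Matrix.GeneralLinearGroup.det : GL ι F →* Fˣ).comp (isometryGroup F Q).subtype
  have h : (k : isometryGroup F Q) ∈ φ.ker := Abelianization.commutator_subset_ker φ k.2
  have h1 : φ (k : isometryGroup F Q) = 1 := h
  exact congrArg Units.val h1

/-- an anisotropic vector orthogonal to a hyperbolic pair -/
theorem exists_aniso (h2 : (2 : F) ≠ 0) (hι : 3 ≤ Fintype.card ι) (B : GL ι F)
    (hB : (B : Matrix ι ι F)ᵀ = B) {e f : ι → F}
    (he : bil (B : Matrix ι ι F) e e = 0) (hf : bil (B : Matrix ι ι F) f f = 0)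
    (hef : bil (B : Matrix ι ι F) e f = 1) :
    ∃ w, bil (B : Matrix ι ι F) e w = 0 ∧ bil (B : Matrix ι ι F) f w = 0 ∧ bil (B : Matrix ι ι F) w w ≠ 0 := by
  have hfe : bil (B : Matrix ι ι F) f e = 1 := by rw [bil_comm hB, hef]
  by_contra hcon
  push Not at hcon
  -- a nonzero vector of `W`
  let L : (ι → F) →ₗ[F] (Fin 2 → F) :=
    { toFun := fun v => ![bil (B : Matrix ι ι F) e v, bil (B : Matrix ι ι F) f v]
      map_add' := fun u v => by
        funext i
        fin_cases i <;> simp [bil_add_right]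
      map_smul' := fun c v => by
        funext i
        fin_cases i <;> simp [bil_smul_right] }
  obtain ⟨w, hw, hw0⟩ : ∃ w, L w = 0 ∧ w ≠ 0 := by
    have h1 : LinearMap.ker L ≠ ⊥ := by
      apply LinearMap.ker_ne_bot_of_finrank_lt
      rw [Module.finrank_fintype_fun_eq_card, Module.finrank_fintype_fun_eq_card, Fintype.card_fin]
      omega
    obtain ⟨w, hw, hw0⟩ := (Submodule.ne_bot_iff _).1 h1
    exact ⟨w, LinearMap.mem_ker.1 hw, hw0⟩
  have hwe : bil (B : Matrix ι ι F) e w = 0 := congrFun hw 0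
  have hwf : bil (B : Matrix ι ι F) f w = 0 := congrFun hw 1
  apply hw0
  apply bil_nd B
  intro y
  set w' := y - bil (B : Matrix ι ι F) y f • e - bil (B : Matrix ι ι F) y e • f with hw'
  have hwe' : bil (B : Matrix ι ι F) e w' = 0 := by
    rw [hw']
    simp only [bil_sub_right, bil_smul_right, he, hef]
    rw [bil_comm hB e y]
    ring
  have hwf' : bil (B : Matrix ι ι F) f w' = 0 := by
    rw [hw']
    simp only [bil_sub_right, bil_smul_right, hf, hfe]
    rw [bil_comm hB f y]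
    ring
  have hy : y = w' + bil (B : Matrix ι ι F) y f • e + bil (B : Matrix ι ι F) y e • f := by
    rw [hw']; abel
  have h1 : bil (B : Matrix ι ι F) w w' = 0 := by
    have h3 := hcon (w + w') (by rw [bil_add_right, hwe, hwe', add_zero])
      (by rw [bil_add_right, hwf, hwf', add_zero])
    simp only [bil_add_left, bil_add_right] at h3
    rw [hcon w hwe hwf, hcon w' hwe' hwf', bil_comm hB w' w] at h3
    have h4 : 2 * bil (B : Matrix ι ι F) w w' = 0 := by linear_combination h3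
    exact (mul_eq_zero.1 h4).resolve_left h2
  rw [hy]
  simp only [bil_add_right, bil_smul_right, h1]
  rw [bil_comm hB w e, bil_comm hB w f, hwe, hwf]
  ring

/-- `Cj` of a similarity normalises `Ω` -/
theorem norm_omega (h2 : (2 : F) ≠ 0) {Q : (ι → F) → F} (B : GL ι F) (hB : (B : Matrix ι ι F)ᵀ = B)
    (hQ : ∀ v, bil (B : Matrix ι ι F) v v = 2 * Q v) (A : GL ι F) (σ : F ≃+* F) {c : F} (hc : c ≠ 0)
    (h : (B : Matrix ι ι F).map σ = c • ((A : Matrix ι ι F)ᵀ * B * A)) (k : Omega F Q) :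
    ∃ k' : Omega F Q, Sem A σ * fO F Q k * (Sem A σ)⁻¹ = fO F Q k' := by
  have hmem : ∀ g : isometryGroup F Q, A * mg σ (g : GL ι F) * A⁻¹ ∈ isometryGroup F Q := by
    intro g
    have hg := (mem_iso_iff h2 hB hQ (g : GL ι F)).1 g.2
    rw [mem_iso_iff h2 hB hQ]
    have e1 : ((A⁻¹ : GL ι F) : Matrix ι ι F)ᵀ * (A : Matrix ι ι F)ᵀ = 1 := by
      rw [← transpose_mul, ← Units.val_mul, mul_inv_cancel, Units.val_one, transpose_one]
    have e2 : (A : Matrix ι ι F) * ((A⁻¹ : GL ι F) : Matrix ι ι F) = 1 := by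
      rw [← Units.val_mul, mul_inv_cancel, Units.val_one]
    have e3 : (A : Matrix ι ι F)ᵀ * B * A = c⁻¹ • (B : Matrix ι ι F).map σ := by
      rw [h, smul_smul, inv_mul_cancel₀ hc, one_smul]
    have e4 : ((g : GL ι F) : Matrix ι ι F).map σ = ((g : GL ι F) : Matrix ι ι F).map (σ : F →+* F) := rfl
    have e5 : (((g : GL ι F) : Matrix ι ι F).map σ)ᵀ * (B : Matrix ι ι F).map σ *
        ((g : GL ι F) : Matrix ι ι F).map σ = (B : Matrix ι ι F).map σ := by
      have h3 := congrArg (fun M : Matrix ι ι F => M.map (σ : F →+* F)) hg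
      simp only [Matrix.map_mul, Matrix.transpose_map] at h3
      exact h3
    rw [Units.val_mul, Units.val_mul, coe_mg, transpose_mul, transpose_mul]
    calc ((A⁻¹ : GL ι F) : Matrix ι ι F)ᵀ * ((((g : GL ι F) : Matrix ι ι F).map σ)ᵀ * (A : Matrix ι ι F)ᵀ) *
          (B : Matrix ι ι F) * ((A : Matrix ι ι F) * ((g : GL ι F) : Matrix ι ι F).map σ *
            ((A⁻¹ : GL ι F) : Matrix ι ι F)) =
        ((A⁻¹ : GL ι F) : Matrix ι ι F)ᵀ * ((((g : GL ι F) : Matrix ι ι F).map σ)ᵀ *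
          ((A : Matrix ι ι F)ᵀ * B * A) * ((g : GL ι F) : Matrix ι ι F).map σ) *
            ((A⁻¹ : GL ι F) : Matrix ι ι F) := by simp only [Matrix.mul_assoc]
      _ = c⁻¹ • (((A⁻¹ : GL ι F) : Matrix ι ι F)ᵀ * ((((g : GL ι F) : Matrix ι ι F).map σ)ᵀ *
          (B : Matrix ι ι F).map σ * ((g : GL ι F) : Matrix ι ι F).map σ) *
            ((A⁻¹ : GL ι F) : Matrix ι ι F)) := by
          rw [e3]
          simp only [Matrix.mul_smul, Matrix.smul_mul]
      _ = ((A⁻¹ : GL ι F) : Matrix ι ι F)ᵀ * (c⁻¹ • (B : Matrix ι ι F).map σ) *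
            ((A⁻¹ : GL ι F) : Matrix ι ι F) := by
          rw [e5]
          simp only [Matrix.mul_smul, Matrix.smul_mul]
      _ = (((A⁻¹ : GL ι F) : Matrix ι ι F)ᵀ * (A : Matrix ι ι F)ᵀ) * B *
            ((A : Matrix ι ι F) * ((A⁻¹ : GL ι F) : Matrix ι ι F)) := by
          rw [← e3]
          simp only [Matrix.mul_assoc]
      _ = B := by rw [e1, e2, Matrix.one_mul, Matrix.mul_one]
  let θ : isometryGroup F Q →* isometryGroup F Q :=
    { toFun := fun g => ⟨A * mg σ (g : GL ι F) * A⁻¹, hmem g⟩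
      map_one' := by
        apply Subtype.ext
        simp
      map_mul' := fun g g' => by
        apply Subtype.ext
        simp only [Subgroup.coe_mul, map_mul]
        group }
  have hθ : θ (k : isometryGroup F Q) ∈ Omega F Q := by
    have h1 : (commutator (isometryGroup F Q)).map θ ≤ commutator (isometryGroup F Q) := by
      rw [commutator_def, Subgroup.map_commutator]
      exact Subgroup.commutator_mono le_top le_top
    exact h1 ⟨_, k.2, rfl⟩
  exact ⟨⟨_, hθ⟩, Sem_conj_Cj A σ _⟩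

/-- the element `-1` on a plane with form `ν I`: it is in `Ω`, acts nontrivially and is a product of
commutators `[q, gam B]` -/
theorem exists_root (h2 : (2 : F) ≠ 0) [Fintype F] [Nontrivial ι] {Q : (ι → F) → F} (B : GL ι F)
    (hB : (B : Matrix ι ι F)ᵀ = B) (hQ : ∀ v, bil (B : Matrix ι ι F) v v = 2 * Q v) {a b y : ι → F} {ν : F}
    (hν : ν ≠ 0) (ha : bil (B : Matrix ι ι F) a a = ν) (hb : bil (B : Matrix ι ι F) b b = ν)
    (hab : bil (B : Matrix ι ι F) a b = 0) (hy : y ≠ 0) (hya : bil (B : Matrix ι ι F) a y = 0)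
    (hyb : bil (B : Matrix ι ι F) b y = 0) :
    ∃ k₀ : Omega F Q, fO F Q k₀ ≠ 1 ∧ fO F Q k₀ ∈ Subgroup.closure
      {z | ∃ q ∈ inn (Matrix.ProjectiveSpecialLinearGroup ι F), q * fO F Q k₀ = fO F Q k₀ * q ∧
        z = q * gam B * q⁻¹ * (gam B)⁻¹} := by
  have hba : bil (B : Matrix ι ι F) b a = 0 := by rw [bil_comm hB, hab]
  let V : Fin 2 → ι → F := ![a, b]
  let P : Matrix ι (Fin 2) F := (Matrix.of V)ᵀ
  let N : Matrix (Fin 2) ι F := ν⁻¹ • (Pᵀ * (B : Matrix ι ι F))
  have hNP : N * P = 1 := by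
    show (ν⁻¹ • (Pᵀ * (B : Matrix ι ι F))) * P = 1
    rw [Matrix.smul_mul]
    have hG : Pᵀ * (B : Matrix ι ι F) * P = ν • (1 : Matrix (Fin 2) (Fin 2) F) := by
      have hij : ∀ i j, (Pᵀ * (B : Matrix ι ι F) * P) i j = bil (B : Matrix ι ι F) (V i) (V j) := by
        intro i j
        rw [Matrix.mul_assoc]
        rfl
      ext i j
      rw [hij]
      fin_cases i <;> fin_cases j
      · simpa [V] using ha
      · simpa [V] using hab
      · simpa [V] using hba
      · simpa [V] using hb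
    rw [hG, smul_smul, inv_mul_cancel₀ hν, one_smul]
  let Φ : Matrix (Fin 2) (Fin 2) F →* Matrix ι ι F := Phi P N hNP
  have hΦiso : ∀ M : Matrix (Fin 2) (Fin 2) F, Mᵀ * M = 1 → (Φ M)ᵀ * (B : Matrix ι ι F) * Φ M = B :=
    fun M hM => Phi_iso hNP hB rfl M hM
  let Ψ : GL (Fin 2) F →* GL ι F := Units.map Φ
  have hΨ : ∀ g : GL (Fin 2) F, (Ψ g : Matrix ι ι F) = Φ (g : Matrix (Fin 2) (Fin 2) F) := fun g => rfl
  let D : GL (Fin 2) F := ⟨!![-1, 0; 0, 1], !![-1, 0; 0, 1], by simp [Matrix.one_fin_two], by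
    simp [Matrix.one_fin_two]⟩
  let T : GL (Fin 2) F := ⟨!![0, 1; 1, 0], !![0, 1; 1, 0], by simp [Matrix.one_fin_two], by
    simp [Matrix.one_fin_two]⟩
  have hD : Ψ D ∈ isometryGroup F Q := (mem_iso_iff h2 hB hQ _).2 (hΦiso _ (by
    show !![-1, 0; 0, 1]ᵀ * !![-1, 0; 0, 1] = (1 : Matrix (Fin 2) (Fin 2) F)
    ext i j
    fin_cases i <;> fin_cases j <;> simp [Matrix.mul_apply, Fin.sum_univ_two]))
  have hT : Ψ T ∈ isometryGroup F Q := (mem_iso_iff h2 hB hQ _).2 (hΦiso _ (by
    show !![0, 1; 1, 0]ᵀ * !![0, 1; 1, 0] = (1 : Matrix (Fin 2) (Fin 2) F)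
    ext i j
    fin_cases i <;> fin_cases j <;> simp [Matrix.mul_apply, Fin.sum_univ_two]))
  let d : isometryGroup F Q := ⟨_, hD⟩
  let t : isometryGroup F Q := ⟨_, hT⟩
  let k₀ : Omega F Q := ⟨⁅d, t⁆, Subgroup.commutator_mem_commutator (Subgroup.mem_top d) (Subgroup.mem_top t)⟩
  have hDT : D * T * D⁻¹ * T⁻¹ = -1 := by
    apply Units.ext
    show !![-1, 0; 0, 1] * !![0, 1; 1, 0] * !![-1, 0; 0, 1] * !![0, 1; 1, 0] =
      (-1 : Matrix (Fin 2) (Fin 2) F)
    rw [Matrix.one_fin_two]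
    simp
  have hk₀ : ((k₀ : isometryGroup F Q) : GL ι F) = Ψ (-1) := by
    show Ψ D * Ψ T * (Ψ D)⁻¹ * (Ψ T)⁻¹ = Ψ (-1)
    rw [← map_inv, ← map_inv, ← map_mul, ← map_mul, ← map_mul, hDT]
  have hfk : fO F Q k₀ = Cj (Ψ (-1)) := by rw [fO_apply, hk₀]
  refine ⟨k₀, ?_, ?_⟩
  · -- nontrivial
    rw [hfk]
    intro h
    obtain ⟨c, hc⟩ := Cj_eq_one_iff.1 h
    have hc' : Φ (-1) = c • (1 : Matrix ι ι F) := hc
    have hNy : N *ᵥ y = 0 := by
      show (ν⁻¹ • (Pᵀ * (B : Matrix ι ι F))) *ᵥ y = 0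
      rw [smul_mulVec, ← mulVec_mulVec]
      have : Pᵀ *ᵥ ((B : Matrix ι ι F) *ᵥ y) = 0 := by
        funext i
        show V i ⬝ᵥ ((B : Matrix ι ι F) *ᵥ y) = 0
        fin_cases i
        · exact hya
        · exact hyb
      rw [this, smul_zero]
    have h3 : Φ (-1) *ᵥ y = y := by
      show (1 + P * ((-1 : Matrix (Fin 2) (Fin 2) F) - 1) * N) *ᵥ y = y
      rw [add_mulVec, one_mulVec, ← mulVec_mulVec, hNy, mulVec_zero, add_zero]
    rw [hc', smul_mulVec, one_mulVec] at h3
    have hc1 : c = 1 := by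
      have h4 : (c - 1) • y = 0 := by rw [sub_smul, h3, one_smul, sub_self]
      exact sub_eq_zero.1 ((smul_eq_zero.1 h4).resolve_right hy)
    have h5 : N * Φ (-1) = -N := by
      show N * (1 + P * ((-1 : Matrix (Fin 2) (Fin 2) F) - 1) * N) = -N
      rw [Matrix.mul_add, Matrix.mul_one, ← Matrix.mul_assoc, ← Matrix.mul_assoc, hNP, Matrix.one_mul,
        Matrix.sub_mul, Matrix.neg_mul, Matrix.one_mul]
      abel
    rw [hc', hc1, one_smul, Matrix.mul_one] at h5
    have h6 : (N * P) 0 0 = (-N * P) 0 0 := by rw [← h5]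
    rw [Matrix.neg_mul, hNP] at h6
    simp at h6
    apply h2
    linear_combination h6
  · obtain ⟨s, hs1, hs2⟩ := exists_s h2
    let s' : GL (Fin 2) F := Matrix.SpecialLinearGroup.toGL ⟨s, hs1⟩
    have hs' : (s' : Matrix (Fin 2) (Fin 2) F) = s := rfl
    have hdet : (Ψ s' : Matrix ι ι F).det = 1 := by
      rw [hΨ, hs']
      show (Phi P N hNP s).det = 1
      rw [Phi_det, hs1]
    have hcomm : Cj (Ψ s') * Cj (Ψ (-1)) = Cj (Ψ (-1)) * Cj (Ψ s') := by
      rw [← map_mul, ← map_mul, ← map_mul, ← map_mul]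
      congr 2
      rw [mul_neg, mul_one, neg_mul, one_mul]
    have hz : Cj (Ψ s') * gam B * (Cj (Ψ s'))⁻¹ * (gam B)⁻¹ ∈ Subgroup.closure
      {z | ∃ q ∈ inn (Matrix.ProjectiveSpecialLinearGroup ι F), q * fO F Q k₀ = fO F Q k₀ * q ∧
        z = q * gam B * q⁻¹ * (gam B)⁻¹} :=
      Subgroup.subset_closure ⟨Cj (Ψ s'), Cj_mem_inn _ hdet, by rw [hfk, hcomm], rfl⟩
    have hz2 := Subgroup.mul_mem _ hz hz
    rw [comm_gam, ← map_mul] at hz2
    have hfin : Ψ s' * (B⁻¹ * (ct (Ψ s'))⁻¹ * B) * (Ψ s' * (B⁻¹ * (ct (Ψ s'))⁻¹ * B)) = Ψ (-1) := by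
      apply Units.ext
      have h1 : ((Ψ s' * (B⁻¹ * (ct (Ψ s'))⁻¹ * B) : GL ι F) : Matrix ι ι F) = Φ (s * sᵀ) := by
        rw [Units.val_mul, coe_adj, hΨ, hs', Matrix.mul_assoc ((B⁻¹ : GL ι F) : Matrix ι ι F)]
        show Φ s * (((B⁻¹ : GL ι F) : Matrix ι ι F) * ((Phi P N hNP s)ᵀ * (B : Matrix ι ι F))) = Φ (s * sᵀ)
        rw [Phi_tr hNP hB rfl, ← Matrix.mul_assoc ((B⁻¹ : GL ι F) : Matrix ι ι F), ← Units.val_mul,
          inv_mul_cancel, Units.val_one, Matrix.one_mul]
        exact (map_mul Φ s sᵀ).symm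
      rw [Units.val_mul, h1, ← map_mul, hs2, hΨ]
      rfl
    rw [hfin] at hz2
    rw [hfk]
    rw [hfk] at hz2
    exact hz2

/-- box BO of S3510 part B -/
theorem killed_O {F : Type} [Field F] [Fintype F] (h2 : (2 : F) ≠ 0) {ι : Type} [Fintype ι]
    [DecidableEq ι] (hι : 3 ≤ Fintype.card ι) (Q : (ι → F) → F) (B : GL ι F)
    (hBs : (B : Matrix ι ι F)ᵀ = B) (hQ : ∀ v, v ⬝ᵥ ((B : Matrix ι ι F) *ᵥ v) = 2 * Q v)
    (e f : ι → F) (he : Q e = 0) (hf : Q f = 0) (hef : e ⬝ᵥ ((B : Matrix ι ι F) *ᵥ f) = 1)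
    (hs : IsSimpleGroup (POmega F Q)) (hnc : ¬ IsMulCommutative (POmega F Q))
    (hRC : Nat.card (POmega F Q) < Nat.card (Matrix.ProjectiveSpecialLinearGroup ι F) →
      RCo (POmega F Q)) :
    Killed (gam B) := by
  have hnt : Nontrivial ι := nontrivial_of_card hι
  have hQ' : ∀ v, bil (B : Matrix ι ι F) v v = 2 * Q v := hQ
  have he' : bil (B : Matrix ι ι F) e e = 0 := by rw [hQ', he, mul_zero]
  have hf' : bil (B : Matrix ι ι F) f f = 0 := by rw [hQ', hf, mul_zero]
  have hef' : bil (B : Matrix ι ι F) e f = 1 := hef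
  have hfe' : bil (B : Matrix ι ι F) f e = 1 := by rw [bil_comm hBs, hef']
  obtain ⟨w₀, h0e, h0f, hν⟩ := exists_aniso h2 hι B hBs he' hf' hef'
  have hw₀ : w₀ ≠ 0 := by
    rintro rfl
    apply hν
    rw [bil, zero_dotProduct]
  have hfi : ∀ k, fO F Q k ∈ inn (Matrix.ProjectiveSpecialLinearGroup ι F) := fun k =>
    Cj_mem_inn _ (det_omega Q k)
  have ht : ∀ k, gam B * fO F Q k = fO F Q k * gam B := by
    intro k
    rw [fO_apply, gam_comm_Cj_iff]
    refine ⟨1, one_ne_zero, ?_⟩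
    rw [one_smul]
    exact ((mem_iso_iff h2 hBs hQ' _).1 (k : isometryGroup F Q).2).symm
  have hcen : ∀ (A : GL ι F) (σ : F ≃+* F), (∀ k, Sem A σ * fO F Q k = fO F Q k * Sem A σ) → Sem A σ = 1 := by
    intro A σ h
    have key : ∀ {u v w : ι → F}, bil (B : Matrix ι ι F) u u = 0 → bil (B : Matrix ι ι F) v v = 0 →
        bil (B : Matrix ι ι F) u v = 1 → bil (B : Matrix ι ι F) u w = 0 → bil (B : Matrix ι ι F) v w = 0 →
        (A : Matrix ι ι F) * (Sg (B : Matrix ι ι F) (Q w) u w).map σ = Sg (B : Matrix ι ι F) (Q w) u w * A := by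
      intro u v w hu hv huv huw hvw
      obtain ⟨k, hk⟩ := exists_Sg_mem (Q := Q) B h2 hBs hQ' hu hv huv huw hvw
      have h1 := h k
      rw [fO_apply, Sem_comm_iff] at h1
      obtain ⟨c, -, hc⟩ := h1
      have h3 := unip_exact A σ ((k : isometryGroup F Q) : GL ι F) (by
        rw [hk]
        exact Sg_nilp hBs hu huw (hQ' w)) hc
      rwa [hk] at h3
    obtain ⟨hσ, c, hc⟩ := cent_main (Q := Q) B hBs he' hf' hef' hw₀ h0e h0f A σ
      (fun w hw hw' => key he' hf' hef' hw hw') (fun w hw hw' => key hf' he' hfe' hw' hw)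
    rw [hσ, Sem_one, Cj_eq_one_iff]
    exact ⟨c, hc⟩
  have hfc : ∀ k, fO F Q k = 1 ↔ k ∈ Subgroup.center (Omega F Q) := by
    intro k
    constructor
    · intro h
      obtain ⟨c, hc⟩ := Cj_eq_one_iff.1 h
      have hc' : (((k : isometryGroup F Q) : GL ι F) : Matrix ι ι F) = c • (1 : Matrix ι ι F) := hc
      rw [Subgroup.mem_center_iff]
      intro g
      apply Subtype.ext
      apply Subtype.ext
      apply Units.ext
      simp only [Subgroup.coe_mul, Units.val_mul]
      rw [hc', Matrix.mul_smul, Matrix.smul_mul, Matrix.mul_one, Matrix.one_mul]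
    · intro h
      have h1 := hcen ((k : isometryGroup F Q) : GL ι F) (RingEquiv.refl F) (by
        intro g
        rw [Sem_one, ← fO_apply, ← map_mul, ← map_mul, Subgroup.mem_center_iff.1 h g])
      rwa [Sem_one] at h1
  have hSs : IsSimpleGroup (Matrix.ProjectiveSpecialLinearGroup ι F) :=
    Cfsg.Agent.LieClassical.SLGen.psl_isSimpleGroup hι
  have hSn : ¬ IsMulCommutative (Matrix.ProjectiveSpecialLinearGroup ι F) := by
    intro hcom
    apply hnc
    have h1 : ∀ k, fO F Q k = 1 := by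
      intro k
      obtain ⟨s, hs⟩ := hfi k
      rw [← hs]
      apply MulEquiv.ext
      intro z
      show s * z * s⁻¹ = z
      rw [hcom.is_comm.comm s z, mul_inv_cancel_right]
    have h3 : ∀ a b : POmega F Q, a * b = b * a := by
      intro a b
      obtain ⟨a, rfl⟩ := QuotientGroup.mk_surjective a
      have : (QuotientGroup.mk a : POmega F Q) = 1 := (QuotientGroup.eq_one_iff a).2 ((hfc a).1 (h1 a))
      rw [this, one_mul, mul_one]
    exact ⟨⟨h3⟩⟩
  have hfin : Finite (Matrix.ProjectiveSpecialLinearGroup ι F) := by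
    unfold Matrix.ProjectiveSpecialLinearGroup
    infer_instance
  have hRC' := hRC (card_lt_of_cent hSs hSn (fO F Q) hfc hfi (gam B) (gam_ne_one hι B) ht)
  -- the root element
  set ν := bil (B : Matrix ι ι F) w₀ w₀ with hνdef
  obtain ⟨k₀, hk₀, hy⟩ := exists_root (Q := Q) (a := w₀) (b := e + (ν / 2) • f) (y := e - (ν / 2) • f) (ν := ν)
    h2 B hBs hQ' hν hνdef.symm
    (by
      simp only [bil_add_left, bil_add_right, bil_smul_left, bil_smul_right, he', hf', hef', hfe']
      field_simp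
      ring)
    (by
      simp only [bil_add_right, bil_smul_right]
      rw [bil_comm hBs w₀ e, bil_comm hBs w₀ f, h0e, h0f]
      ring)
    (by
      intro h
      have h1 := congrArg (bil (B : Matrix ι ι F) f) h
      simp only [bil_sub_right, bil_smul_right, hfe', hf'] at h1
      rw [bil, mulVec_zero, dotProduct_zero] at h1
      simp at h1)
    (by
      simp only [bil_sub_right, bil_smul_right]
      rw [bil_comm hBs w₀ e, bil_comm hBs w₀ f, h0e, h0f]
      ring)
    (by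
      simp only [bil_add_left, bil_sub_right, bil_smul_left, bil_smul_right, he', hf', hef', hfe']
      ring)
  rw [killed_iff]
  intro κ _ x r hF H hcov
  have hx : ∀ i, ∃ (A : GL ι F) (σ : F ≃+* F), x i = Sem A σ := fun i =>
    exists_sem_of_odd (by omega) (x i) ((hF.pr i).odd_of_ne_two (hF.ne2 i)) (hF.pow i)
  refine fam_K hSs hF (gam_sq B (Or.inl hBs)) hcov (fO F Q) hfc hs hnc hRC' hfi ht ?_ ?_ k₀ hk₀ hy
  · intro i k
    obtain ⟨A, σ, hA⟩ := hx i
    have h1 := hF.commt i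
    rw [hA, gam_comm_iff] at h1
    obtain ⟨c, hc, h1⟩ := h1
    rw [hA]
    exact norm_omega h2 B hBs hQ' A σ hc h1 k
  · intro i h
    obtain ⟨A, σ, hA⟩ := hx i
    apply hF.ne1 i
    rw [hA]
    rw [hA] at h
    exact hcen A σ h

end Cfsg.Agent.H679.RC
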