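import Cfsg.Agent.H236.RC.FA
import Cfsg.Agent.H377.RowTriA
import Cfsg.Agent.H566.RC.TriFrame

/-!
# S3510, non-geometric automorphisms of orthogonal groups: a field automorphism in the cover (helper679)

* `exists_three` : an element of order three of `E Q` which is not a scalar;
* `not_fix_lattice` : an automorphism of `P Q` not induced by a semisimilitude does not fix pointwise the image of the
  orthogonal group of a lattice over a subfield;
* `exists_descent` : descent (helper188) with arbitrary linear elements commuting with the nonlinear members;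
* `box_field` : a cover with a non-geometric element of order three and a nonlinear member does not exist.
-/

set_option autoImplicit false
set_option linter.unusedSimpArgs false
open Cfsg

namespace Cfsg.Agent.H679.RC.TriField

open QuadraticMap MulAction
open Cfsg.Agent.LieClassical.OrthCore Cfsg.Agent.LieClassical.OrthTrans
open Cfsg.Agent.LieClassical.OrthSimple Cfsg.Agent.ClassicalGeometry.OrthSemi
open Cfsg.Agent.ClassicalGeometry.OrthAut1 Cfsg.Agent.H106.RC Cfsg.Agent.H93.RC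

section desc

open Cfsg.Agent.H188.RC

variable {F V : Type*} [Field F] [Finite F] [AddCommGroup V] [Module F V] [FiniteDimensional F V]
  {Q : QuadraticForm F V} {G : Type*} [Group G] {N : Subgroup G} {ρ : ↥(E Q) →* G}

/-- **Descent** (helper188), with arbitrary linear elements commuting with the nonlinear members. -/
theorem exists_descent (hG : Good Q) (hρ : Rep Q N ρ) {ι : Type*} [Finite ι] {x : ι → G} {M : ι → Gam Q}
    {r : ι → ℕ} (hl : ∀ i, Lf ρ (x i) (M i)) (hx : PF x r) (hnl : ∃ i, ¬ IsLin (M i)) :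
    ∃ (K : Subfield F) (b : Module.Basis (Fin (Module.finrank F V)) F V)
      (Q₀ : QuadraticForm K (Fin (Module.finrank F V) → K)) (d : F),
      ¬ Function.Surjective K.subtype ∧ d ≠ 0 ∧
      (∀ v, Q (semJ K.subtype b v) = d * K.subtype (Q₀ v)) ∧
      (∀ i, ¬ IsLin (M i) → ∃ s : F, s ≠ 0 ∧ ∀ v, (M i).1 (semJ K.subtype b v) = s • semJ K.subtype b v) ∧
      ∀ (z : G) (Z : Gam Q), Lf ρ z Z → IsLin Z → (∀ i, ¬ IsLin (M i) → z * x i = x i * z) →
        ∃ (s : F) (T : (Fin (Module.finrank F V) → K) ≃ₗ[K] (Fin (Module.finrank F V) → K)),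
        s ≠ 0 ∧ ∀ v, Z.1 (semJ K.subtype b v) = s • semJ K.subtype b (T v) := by
  classical
  -- the nonlinear members
  let κ := {i : ι // ¬ IsLin (M i)}
  have hf : ∀ i : κ, ∃ τ : F ≃+* F, τ ≠ 1 ∧ Fld ρ (x i) τ := by
    rintro ⟨i, hi⟩
    obtain ⟨σ, c, hM⟩ := (M i).2
    refine ⟨σ, ?_, M i, c, hl i, hM⟩
    rintro rfl
    exact hi (isLin_of_ss hM)
  obtain ⟨g, τ, hgc, hgk, ⟨Y, c₀, hY, hYs⟩, hgm⟩ := exists_gen_fld (x := fun i : κ => x i) (r := fun i : κ => r i)
    hG hρ (fun i => hx.prime i) (fun i j h => Subtype.ext (hx.inj h)) (fun i => hx.pow i)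
    (fun i j => hx.comm i j) hf
  have hτ1 : τ ≠ 1 := by
    obtain ⟨i, hi⟩ := hnl
    obtain ⟨k, hk⟩ := hgk ⟨i, hi⟩
    obtain ⟨σ, hσ1, hσ⟩ := hf ⟨i, hi⟩
    rintro rfl
    apply hσ1
    have h1 : Fld ρ (x i) ((1 : F ≃+* F) ^ k) := by
      show Fld ρ (x i) _
      have : x i = g ^ k := hk
      rw [this]
      exact Fld.pow ⟨Y, c₀, hY, hYs⟩ k
    rw [one_pow] at h1
    exact hσ.uniq hG hρ h1
  have hfin : Finite (F ≃+* F) := Finite.of_injective (fun e : F ≃+* F => (e : F → F)) DFunLike.coe_injective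
  -- descent
  obtain ⟨c₁, -, hc₁⟩ := hY.pow_scal hG hρ hgm
  obtain ⟨a, ha, b, hb⟩ := descent τ (orderOf τ) (orderOf_pos τ) rfl { Y.1 with map_add' := hYs.add }
    (fun t v => hYs.smul t v) c₁ (by
      intro v
      have h1 := hc₁ v
      rw [Subgroup.coe_pow, ← Equiv.Perm.iterate_eq_pow] at h1
      exact h1)
  have hb' : ∀ i, Y.1 (b i) = a⁻¹ • b i := by
    intro i
    have h1 : a • Y.1 (b i) = b i := hb i
    rw [← h1, smul_smul, inv_mul_cancel₀ ha, one_smul]
    exact congrArg Y.1 h1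
  let K : Subfield F := (τ : F →+* F).eqLocusField (RingHom.id F)
  have hK : ∀ t, t ∈ K ↔ τ t = t := fun t => Iff.rfl
  set J := semJ K.subtype b with hJ
  let Yh : V →+ V := ⟨⟨Y.1, hYs.map_zero⟩, hYs.add⟩
  have hYh : ∀ v, Yh v = Y.1 v := fun v => rfl
  have hYJ : ∀ v, Y.1 (J v) = a⁻¹ • J v := by
    intro v
    rw [← hYh, hJ, semJ, map_sum, Finset.smul_sum]
    refine Finset.sum_congr rfl fun i _ => ?_
    rw [hYh, hYs.smul, hb']
    have h1 : τ (K.subtype (v i)) = K.subtype (v i) := (v i).2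
    rw [h1, smul_comm]
  have hYk : ∀ k : ℕ, ∃ t : F, t ≠ 0 ∧ ∀ v, (Y ^ k).1 (J v) = t • J v := by
    intro k
    induction k with
    | zero => exact ⟨1, one_ne_zero, fun v => by rw [pow_zero, one_smul]; rfl⟩
    | succ k ih =>
      obtain ⟨t, ht, h⟩ := ih
      refine ⟨τ t * a⁻¹, mul_ne_zero ((map_ne_zero τ).mpr ht) (inv_ne_zero ha), fun v => ?_⟩
      rw [pow_succ']
      show Y.1 ((Y ^ k).1 (J v)) = _
      rw [h, hYs.smul, hYJ, smul_smul]
  -- the form
  have hμ : c₀⁻¹ * (a⁻¹ * a⁻¹) ≠ 0 := mul_ne_zero (inv_ne_zero hYs.ne) (mul_ne_zero (inv_ne_zero ha) (inv_ne_zero ha))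
  obtain ⟨Q₀, d, hd, hQ⟩ := exists_form hG hK b hμ (by
    intro v
    have h1 := hYs.form (J v)
    rw [hYJ, QuadraticMap.map_smul, smul_eq_mul] at h1
    rw [← hJ, mul_assoc, h1, ← mul_assoc, inv_mul_cancel₀ hYs.ne, one_mul])
  refine ⟨K, b, Q₀, d, ?_, hd, hQ, ?_, ?_⟩
  · intro hsurj
    apply hτ1
    ext t
    obtain ⟨u, rfl⟩ := hsurj t
    exact u.2
  · intro i hi
    obtain ⟨k, hk⟩ := hgk ⟨i, hi⟩
    have h1 : Lf ρ (x i) (Y ^ k) := by
      have : x i = g ^ k := hk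
      rw [this]
      exact hY.pow k
    obtain ⟨u, hu, h2⟩ := lf_unique hG hρ (hl i) h1
    obtain ⟨t, ht, h3⟩ := hYk k
    refine ⟨u * t, mul_ne_zero hu ht, fun v => ?_⟩
    rw [← hJ, h2, h3, smul_smul]
  · intro z Z hz hi hzc
    obtain ⟨σ, c, hM⟩ := Z.2
    have hσ := ss_one_of_isLin hG hi hM
    subst hσ
    -- commutation
    have hcg : z * g = g * z := by
      have h1 : Subgroup.closure (Set.range fun j : κ => x j) ≤ Subgroup.centralizer {z} := by
        rw [Subgroup.closure_le]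
        rintro _ ⟨j, rfl⟩
        rw [SetLike.mem_coe, Subgroup.mem_centralizer_singleton_iff]
        exact (hzc j j.2).symm
      exact (Subgroup.mem_centralizer_singleton_iff.mp (h1 hgc)).symm
    obtain ⟨l, hl0, hcomm⟩ := hz.comm hG hρ hY hcg
    let X : V →ₗ[F] V := { toFun := Z.1, map_add' := hM.add, map_smul' := hi }
    have hXa : ∀ v, X v = Z.1 v := fun v => rfl
    let cf : Fin (Module.finrank F V) → Fin (Module.finrank F V) → F := fun k j => b.repr (X (b j)) k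
    have hcf : ∀ j, X (b j) = ∑ k, cf k j • b k := fun j => (b.sum_repr (X (b j))).symm
    have hrel : ∀ k j, cf k j = l * τ (cf k j) := by
      intro k j
      have h1 := hcomm (b j)
      rw [hb', hi, ← hXa, hcf, ← hYh, map_sum] at h1
      have h2 : ∀ k, Yh (cf k j • b k) = a⁻¹ • (τ (cf k j) • b k) := fun k => by
        rw [hYh, hYs.smul, hb', smul_comm]
      rw [Finset.sum_congr rfl fun k _ => h2 k, ← Finset.smul_sum, smul_comm l a⁻¹] at h1
      have h3 := smul_right_injective V (inv_ne_zero ha) h1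
      have h4 := congrArg (fun v => b.repr v k) h3
      simp only [Finset.smul_sum, smul_smul, map_sum, map_smul, Finsupp.coe_finsetSum, Finset.sum_apply,
        Finsupp.smul_apply, Module.Basis.repr_self, smul_eq_mul] at h4
      have h5 : ∀ f : Fin (Module.finrank F V) → F, ∑ j, f j * (Finsupp.single j (1 : F)) k = f k := by
        intro f
        rw [Finset.sum_eq_single k]
        · rw [Finsupp.single_eq_same, mul_one]
        · intro j _ hj
          rw [Finsupp.single_eq_of_ne (by tauto), mul_zero]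
        · intro h
          exact (h (Finset.mem_univ k)).elim
      rw [h5, h5] at h4
      exact h4
    obtain ⟨k₀, j₀, hs⟩ : ∃ k j, cf k j ≠ 0 := by
      by_contra hno
      push Not at hno
      obtain ⟨y, z, hyz⟩ := hG.exists_hyp
      have h1 : X = 0 := b.ext fun j => by
        rw [hcf j]
        simp [hno]
      have h2 : Z.1 y = Z.1 0 := by
        rw [← hXa, ← hXa, h1]
        rfl
      exact hyz.left_ne (Z.1.injective h2)
    set s := cf k₀ j₀ with hsdef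
    have hmem : ∀ k j, cf k j / s ∈ K := by
      intro k j
      rw [hK, map_div₀]
      have h1 := hrel k j
      have h2 := hrel k₀ j₀
      rw [← hsdef] at h2
      have hτs : τ s ≠ 0 := (map_ne_zero τ).mpr hs
      rw [div_eq_div_iff hτs hs]
      have h3 : cf k j * τ s = l * τ (cf k j) * τ s := by rw [← h1]
      have h4 : τ (cf k j) * s = τ (cf k j) * (l * τ s) := by rw [← h2]
      rw [h3, h4]
      ring
    let T₀ : Matrix (Fin (Module.finrank F V)) (Fin (Module.finrank F V)) K := Matrix.of fun k j => ⟨cf k j / s, hmem k j⟩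
    have hT₀ : ∀ k j, (T₀ k j : F) = cf k j / s := fun k j => rfl
    have hXJ : ∀ v, Z.1 (J v) = s • J (T₀.mulVec v) := by
      intro v
      rw [← hXa, hJ, semJ, semJ, map_sum, Finset.smul_sum]
      have h1 : ∀ j, X (K.subtype (v j) • b j) = ∑ k, (cf k j * (v j : F)) • b k := by
        intro j
        rw [map_smul, hcf, Finset.smul_sum]
        refine Finset.sum_congr rfl fun k _ => ?_
        rw [smul_smul, mul_comm]
        rfl
      rw [Finset.sum_congr rfl fun j _ => h1 j, Finset.sum_comm]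
      refine Finset.sum_congr rfl fun k _ => ?_
      rw [← Finset.sum_smul, smul_smul]
      congr 1
      have h2 : K.subtype (T₀.mulVec v k) = ∑ j, (cf k j / s) * (v j : F) := by
        rw [Matrix.mulVec, dotProduct, map_sum]
        rfl
      rw [h2, Finset.mul_sum]
      refine Finset.sum_congr rfl fun j _ => ?_
      rw [← mul_assoc, mul_div_cancel₀ _ hs]
    refine ⟨s, LinearEquiv.ofInjectiveEndo (Matrix.toLin' T₀) ?_, hs, fun v => ?_⟩
    · rw [← LinearMap.ker_eq_bot, LinearMap.ker_eq_bot']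
      intro v hv
      have h1 := hXJ v
      have h2 : T₀.mulVec v = 0 := hv
      rw [h2, hJ, semJ_zero, smul_zero, ← hM.map_zero] at h1
      have h3 := Z.1.injective h1
      rw [← semJ_zero (φ := K.subtype) (b := b)] at h3
      exact semJ_injective h3
    · exact hXJ v

end desc

open Cfsg.Agent.H236.RC Cfsg.Agent.AutOrth.SemiSim Cfsg.Agent.H566.RC
open scoped commutatorElement

section three

variable {F V : Type*} [Field F] [AddCommGroup V] [Module F V] {Q : QuadraticForm F V}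

/-- an element of order three -/
theorem exists_three (hG : Good Q) : ∃ g : ↥(E Q), g ^ 3 = 1 ∧ ¬ ∃ c : F, ∀ v, (g : V ≃ₗ[F] V) v = c • v := by
  obtain ⟨e1, f1, h1⟩ := hG.exists_hyp
  obtain ⟨e2, f2, h2, h3, h4, h5, h6⟩ := hG.exists_hyp2 h1
  have e11 : polar Q e1 e1 = 0 := polar_self_of_sing h1.left
  have f11 : polar Q f1 f1 = 0 := polar_self_of_sing h1.right
  have e22 : polar Q e2 e2 = 0 := polar_self_of_sing h2.left
  have f22 : polar Q f2 f2 = 0 := polar_self_of_sing h2.right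
  have ef1 := h1.pair
  have fe1 := h1.pair'
  have ef2 := h2.pair
  have fe2 := h2.pair'
  have e21 : polar Q e2 e1 = 0 := by rw [polar_comm, h3]
  have f2e1 : polar Q f2 e1 = 0 := by rw [polar_comm, h4]
  have e2f1 : polar Q e2 f1 = 0 := by rw [polar_comm, h5]
  have f2f1 : polar Q f2 f1 = 0 := by rw [polar_comm, h6]
  set X := sg Q e1 f2 h1.left h4 with hX
  set Y := sg Q f1 e2 h1.right h5 with hY
  have hXz : ∀ z, (X : V ≃ₗ[F] V) z = z + polar Q e1 z • f2 - polar Q f2 z • e1 := by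
    intro z
    rw [hX, sg_apply, h2.right, zero_mul, zero_smul, sub_zero]
  have hYz : ∀ z, (Y : V ≃ₗ[F] V) z = z + polar Q f1 z • e2 - polar Q e2 z • f1 := by
    intro z
    rw [hY, sg_apply, h2.left, zero_mul, zero_smul, sub_zero]
  have hA : ∀ z, ((X * Y : ↥(E Q)) : V ≃ₗ[F] V) z = z + (-(polar Q f1 z + polar Q f2 z)) • e1 + polar Q f1 z • e2 +
      (-polar Q e2 z) • f1 + (polar Q e1 z - polar Q e2 z) • f2 := by
    intro z
    change (X : V ≃ₗ[F] V) ((Y : V ≃ₗ[F] V) z) = _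
    rw [hYz, hXz]
    simp only [polar_add_right, polar_sub_right, polar_smul_right, smul_eq_mul, e11, f11, e22, f22, ef1, fe1, ef2, fe2,
      e21, f2e1, e2f1, f2f1, h3, h4, h5, h6]
    module
  have hg : ∀ z, ((X * Y * (X * Y) : ↥(E Q)) : V ≃ₗ[F] V) z = z + (-(2 * polar Q f1 z + polar Q f2 z)) • e1 +
      (polar Q f1 z - polar Q f2 z) • e2 + (-(polar Q e1 z + polar Q e2 z)) • f1 +
      (polar Q e1 z - 2 * polar Q e2 z) • f2 := by
    intro z
    change ((X * Y : ↥(E Q)) : V ≃ₗ[F] V) (((X * Y : ↥(E Q)) : V ≃ₗ[F] V) z) = _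
    rw [hA, hA]
    simp only [polar_add_right, polar_sub_right, polar_smul_right, smul_eq_mul, e11, f11, e22, f22, ef1, fe1, ef2, fe2,
      e21, f2e1, e2f1, f2f1, h3, h4, h5, h6]
    module
  refine ⟨X * Y * (X * Y), ?_, ?_⟩
  · apply Subtype.ext
    apply LinearEquiv.ext
    intro z
    rw [pow_three]
    change ((X * Y * (X * Y) : ↥(E Q)) : V ≃ₗ[F] V) (((X * Y * (X * Y) : ↥(E Q)) : V ≃ₗ[F] V)
      (((X * Y * (X * Y) : ↥(E Q)) : V ≃ₗ[F] V) z)) = z
    rw [hg, hg, hg]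
    simp only [polar_add_right, polar_sub_right, polar_smul_right, smul_eq_mul, e11, f11, e22, f22, ef1, fe1, ef2, fe2,
      e21, f2e1, e2f1, f2f1, h3, h4, h5, h6]
    module
  · rintro ⟨c, hc⟩
    have h7 := congrArg (polar Q f2) (hc e1)
    rw [hg] at h7
    simp only [polar_add_right, polar_sub_right, polar_smul_right, smul_eq_mul, e11, f11, e22, f22, ef1, fe1, ef2, fe2,
      e21, f2e1, e2f1, f2f1, h3, h4, h5, h6] at h7
    apply one_ne_zero (α := F)
    linear_combination h7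

end three

section nofix

variable {F F0 V : Type*} [Field F] [Finite F] [Field F0] [AddCommGroup V] [Module F V] [FiniteDimensional F V] {n : ℕ}
  {φ : F0 →+* F} {b : Module.Basis (Fin n) F V} {Q : QuadraticForm F V} {Q0 : QuadraticForm F0 (Fin n → F0)}
  {d : F}

omit [Finite F] in
/-- a vector orthogonal to a maximal totally singular subspace -/
theorem mem_of_perp (hG : Good Q) (h8 : Module.finrank F V = 8) {W : Submodule F V} (hW : TS Q W)
    (hW4 : Module.finrank F W = 4) {x : V} (hx : Q x = 0) (hxW : ∀ w ∈ W, polar Q x w = 0) : x ∈ W := by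
  by_contra hxn
  have h1 := H955.two_mul_finrank_le hG.nondeg (U := W ⊔ Submodule.span F {x}) (by
    intro u hu
    obtain ⟨w, hw, y, hy, rfl⟩ := Submodule.mem_sup.1 hu
    obtain ⟨c, rfl⟩ := Submodule.mem_span_singleton.1 hy
    rw [Q_add, hW w hw, QuadraticMap.map_smul, hx, polar_smul_right, polar_comm, hxW w hw]
    simp)
  have h2 : W < W ⊔ Submodule.span F {x} := by
    refine lt_of_le_of_ne le_sup_left fun h => hxn ?_
    rw [h]
    exact Submodule.mem_sup_right (Submodule.mem_span_singleton_self x)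
  have h3 := Submodule.finrank_lt_finrank_of_lt h2
  omega

omit [FiniteDimensional F V] in
/-- three orthogonal directions -/
theorem exists_frame (hG : Good Q) (h7 : 7 ≤ Module.finrank F V) : ∃ e1 e2 f2 w : V, Q e1 = 0 ∧ e1 ≠ 0 ∧ Hyp Q e2 f2 ∧
    polar Q e1 e2 = 0 ∧ polar Q e1 f2 = 0 ∧ Q w ≠ 0 ∧ polar Q e1 w = 0 ∧ polar Q e2 w = 0 ∧ polar Q f2 w = 0 := by
  obtain ⟨e1, f1, h1⟩ := hG.exists_hyp
  obtain ⟨e2, f2, h2, h3, h4, h5, h6⟩ := hG.exists_hyp2 h1
  have e10 : e1 ≠ 0 := h1.left_ne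
  refine ⟨e1, e2, f2, ?_⟩
  obtain ⟨w1, hw0, hw, hp⟩ := LieClassical.OrthFinite.exists_sing_perp (Q := Q) (n := 4) ![e1, f1, e2, f2] (by omega)
  have p1 : polar Q e1 w1 = 0 := hp 0
  have p2 : polar Q f1 w1 = 0 := hp 1
  have p3 : polar Q e2 w1 = 0 := hp 2
  have p4 : polar Q f2 w1 = 0 := hp 3
  obtain ⟨z, hz⟩ := hG.nondeg.exists_polar_eq hw0 1
  set w := z - polar Q f1 z • e1 - polar Q e1 z • f1 - polar Q f2 z • e2 - polar Q e2 z • f2 with hwdef
  have e11 : polar Q e1 e1 = 0 := polar_self_of_sing h1.left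
  have e22 : polar Q e2 e2 = 0 := polar_self_of_sing h2.left
  have f22 : polar Q f2 f2 = 0 := polar_self_of_sing h2.right
  have ef1 := h1.pair
  have ef2 := h2.pair
  have fe2 := h2.pair'
  have e21 : polar Q e2 e1 = 0 := by rw [polar_comm, h3]
  have f2e1 : polar Q f2 e1 = 0 := by rw [polar_comm, h4]
  have e2f1 : polar Q e2 f1 = 0 := by rw [polar_comm, h5]
  have f2f1 : polar Q f2 f1 = 0 := by rw [polar_comm, h6]
  have q1 : polar Q e1 w = 0 := by
    rw [hwdef]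
    simp only [polar_sub_right, polar_smul_right, smul_eq_mul, e11, ef1, h3, h4]
    ring
  have q3 : polar Q e2 w = 0 := by
    rw [hwdef]
    simp only [polar_sub_right, polar_smul_right, smul_eq_mul, e22, ef2, e21, e2f1]
    ring
  have q4 : polar Q f2 w = 0 := by
    rw [hwdef]
    simp only [polar_sub_right, polar_smul_right, smul_eq_mul, f22, fe2, f2e1, f2f1]
    ring
  have qw : polar Q w1 w = 1 := by
    rw [hwdef]
    simp only [polar_sub_right, polar_smul_right, smul_eq_mul, hz, polar_comm Q w1 e1, polar_comm Q w1 f1,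
      polar_comm Q w1 e2, polar_comm Q w1 f2, p1, p2, p3, p4]
    ring
  by_cases h0 : Q w = 0
  · refine ⟨w1 + w, h1.left, e10, h2, h3, h4, ?_, ?_, ?_, ?_⟩
    · rw [Q_add, hw, h0, qw]
      simp
    · rw [polar_add_right, p1, q1, add_zero]
    · rw [polar_add_right, p3, q3, add_zero]
    · rw [polar_add_right, p4, q4, add_zero]
  · exact ⟨w, h1.left, e10, h2, h3, h4, h0, q1, q3, q4⟩

/-- **An automorphism which is not induced by a semisimilitude does not fix the group of a lattice pointwise.** -/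
theorem not_fix_lattice (hG : Good Q) (h7 : 7 ≤ Module.finrank F V) {α : MulAut (P Q)} (hα : α ∉ (Psi Q).range)
    (hd : d ≠ 0) (hQ : ∀ v, Q (semJ φ b v) = d * φ (Q0 v))
    (hfix : ∀ g : ↥(E Q0), α ((psiE hd hQ g : ↥(E Q)) : P Q) = ((psiE hd hQ g : ↥(E Q)) : P Q)) : False := by
  have hf0 : Finite F0 := Finite.of_injective φ φ.injective
  have hG0 : Good Q0 := good0 hG hQ
  have hn : 7 ≤ Module.finrank F0 (Fin n → F0) := by
    rw [Module.finrank_fin_fun]
    rwa [Module.finrank_eq_card_basis b, Fintype.card_fin] at h7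
  obtain ⟨e1, e2, f2, w, he1, he10, h2, h12, h1f, hw, hw1, hw2, hwf⟩ := exists_frame hG0 hn
  have hJe : Q (semJ φ b e1) = 0 := by rw [hQ, he1, map_zero, mul_zero]
  have hJ0 : semJ φ b e1 ≠ 0 := fun h => he10 (semJ_injective φ b (by rw [h, semJ_zero]))
  rcases Cfsg.Agent.ClassicalGeometry.OrthAut3.dichotomy hG h7 α hJe hJ0 with ⟨y, hy, hy0, h⟩ | ⟨h8, W, hW, hW4, h⟩
  · exact hα (Cfsg.Agent.AutOrth.Final.mem_range_of_pt hG h7 (H377.RowTri.pt_of_one hG hJe hJ0 hy hy0 h))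
  · -- the stabiliser of `e1` leaves `W` invariant
    have hst : ∀ g : ↥(E Q0), (g : (Fin n → F0) ≃ₗ[F0] (Fin n → F0)) e1 = e1 → ∀ x ∈ W,
        (psiE hd hQ g : V ≃ₗ[F] V) x ∈ W := by
      intro g hg x hx
      have h1 : ((psiE hd hQ g : ↥(E Q)) : P Q) ∈ stab hG (Submodule.span F {semJ φ b e1}) := by
        rw [mem_stab, pact_mk, mapHom_span, psiE_semJ, hg]
      have h3 : ((psiE hd hQ g : ↥(E Q)) : P Q) ∈ stab hG W := by
        rw [← h, Subgroup.mem_map]
        exact ⟨_, h1, hfix g⟩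
      exact apply_mem_of_mem_stab h3 hx
    have key : ∀ v' : Fin n → F0, Q0 v' = 0 → polar Q0 e1 v' = 0 → polar Q0 v' w = 0 → semJ φ b v' ∈ W := by
      intro v' hv' hev hvw
      have hu' : Q (semJ φ b v') = 0 := by rw [hQ, hv', map_zero, mul_zero]
      have hw' : polar Q (semJ φ b v') (d⁻¹ • semJ φ b w) = 0 := by
        rw [polar_smul_right, polar_semJ hQ, hvw, map_zero, mul_zero, smul_zero]
      apply mem_of_perp hG h8 hW hW4 hu'
      intro x hx
      by_contra hne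
      have h1 := hst (sg Q0 v' w hv' hvw) (by
        rw [sg_apply, polar_comm Q0 v' e1, polar_comm Q0 w e1, hev, hw1]
        simp) x hx
      have h3 : (psiE hd hQ (sg Q0 v' w hv' hvw) : V ≃ₗ[F] V) x = x + polar Q (semJ φ b v') x • (d⁻¹ • semJ φ b w) -
          polar Q (d⁻¹ • semJ φ b w) x • semJ φ b v' -
          (Q (d⁻¹ • semJ φ b w) * polar Q (semJ φ b v') x) • semJ φ b v' := by
        rw [psiE_coe]
        change extS φ b (siegel Q0 v' w hv' hvw) x = _
        rw [extS_siegel hd hQ hv' hvw hu' hw', siegel_apply]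
      rw [h3] at h1
      have h4 := W.sub_mem h1 hx
      have h5 := hW _ h4
      set t := polar Q (semJ φ b v') x with ht
      set k := Q (d⁻¹ • semJ φ b w) with hk
      have hk0 : k ≠ 0 := by
        rw [hk, QuadraticMap.map_smul, hQ, smul_eq_mul]
        exact mul_ne_zero (mul_ne_zero (inv_ne_zero hd) (inv_ne_zero hd)) (mul_ne_zero hd ((map_ne_zero φ).2 hw))
      have h7 : ∀ c : F, Q (t • (d⁻¹ • semJ φ b w) + c • semJ φ b v') = t * t * k := by
        intro c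
        rw [Q_add, QuadraticMap.map_smul, QuadraticMap.map_smul (a := c), hu', ← hk, polar_smul_right,
          polar_comm Q (t • (d⁻¹ • semJ φ b w)), polar_smul_right, hw']
        simp only [smul_eq_mul, mul_zero, add_zero]
      have h6 : x + t • (d⁻¹ • semJ φ b w) - polar Q (d⁻¹ • semJ φ b w) x • semJ φ b v' - (k * t) • semJ φ b v' - x =
          t • (d⁻¹ • semJ φ b w) + (-(polar Q (d⁻¹ • semJ φ b w) x) - k * t) • semJ φ b v' := by module
      rw [h6, h7] at h5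
      exact (mul_ne_zero (mul_ne_zero hne hne) hk0) h5
    have k1 := key e2 h2.left h12 hw2
    have k2 := key f2 h2.right h1f hwf
    have h9 := hW.polar k1 k2
    rw [polar_semJ hQ, h2.pair, map_one, mul_one] at h9
    exact hd h9

end nofix

section comm

variable {F F0 V : Type*} [Field F] [Field F0] [AddCommGroup V] [Module F V] {n : ℕ}
  {φ : F0 →+* F} {b : Module.Basis (Fin n) F V} {Q : QuadraticForm F V} {Q0 : QuadraticForm F0 (Fin n → F0)}
  {d : F}

/-- commutators of elements preserving the lattice up to scalars -/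
theorem comm_J {s1 s2 : ↥(E Q)} {T1 T2 : (Fin n → F0) ≃ₗ[F0] (Fin n → F0)} {a1 a2 : F} (h1 : a1 ≠ 0) (h2 : a2 ≠ 0)
    (hs1 : ∀ v, (s1 : V ≃ₗ[F] V) (semJ φ b v) = a1 • semJ φ b (T1 v))
    (hs2 : ∀ v, (s2 : V ≃ₗ[F] V) (semJ φ b v) = a2 • semJ φ b (T2 v)) (v : Fin n → F0) :
    ((⁅s1, s2⁆ : ↥(E Q)) : V ≃ₗ[F] V) (semJ φ b v) = semJ φ b (⁅T1, T2⁆ v) := by
  obtain ⟨u, rfl⟩ := (T2 * T1).surjective v
  have e1 : semJ φ b ((T2 * T1) u) = (a1 * a2)⁻¹ • (s2 : V ≃ₗ[F] V) ((s1 : V ≃ₗ[F] V) (semJ φ b u)) := by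
    have h3 : (a1 * a2)⁻¹ * a1 * a2 = 1 := by rw [mul_assoc, inv_mul_cancel₀ (mul_ne_zero h1 h2)]
    rw [hs1, map_smul, hs2, smul_smul, smul_smul, h3, one_smul]
    rfl
  have e2 : ∀ x, ((⁅s1, s2⁆ : ↥(E Q)) : V ≃ₗ[F] V) ((s2 : V ≃ₗ[F] V) ((s1 : V ≃ₗ[F] V) x)) =
      (s1 : V ≃ₗ[F] V) ((s2 : V ≃ₗ[F] V) x) := by
    intro x
    have h3 : ⁅s1, s2⁆ * (s2 * s1) = s1 * s2 := by rw [commutatorElement_def]; group
    exact congrArg (fun g : ↥(E Q) => (g : V ≃ₗ[F] V) x) h3
  have e3 : ⁅T1, T2⁆ ((T2 * T1) u) = T1 (T2 u) := by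
    have h3 : ⁅T1, T2⁆ * (T2 * T1) = T1 * T2 := by rw [commutatorElement_def]; group
    exact congrArg (fun g : (Fin n → F0) ≃ₗ[F0] (Fin n → F0) => g u) h3
  rw [e1, map_smul, e2, e3, hs2, map_smul, hs1, smul_smul, smul_smul]
  have h3 : (a1 * a2)⁻¹ * a2 * a1 = 1 := by
    rw [mul_assoc, mul_comm a2 a1]
    exact inv_mul_cancel₀ (mul_ne_zero h1 h2)
  rw [h3, one_smul]

/-- the commutator of two similitudes is an isometry -/
theorem comm_mem_O {T1 T2 : (Fin n → F0) ≃ₗ[F0] (Fin n → F0)} {c1 c2 : F0} (h1 : ∀ v, Q0 (T1 v) = c1 * Q0 v)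
    (h2 : ∀ v, Q0 (T2 v) = c2 * Q0 v) : ⁅T1, T2⁆ ∈ O Q0 := by
  rw [mem_O]
  intro v
  obtain ⟨u, rfl⟩ := (T2 * T1).surjective v
  have e3 : ⁅T1, T2⁆ ((T2 * T1) u) = T1 (T2 u) := by
    have h3 : ⁅T1, T2⁆ * (T2 * T1) = T1 * T2 := by rw [commutatorElement_def]; group
    exact congrArg (fun g : (Fin n → F0) ≃ₗ[F0] (Fin n → F0) => g u) h3
  have e4 : (T2 * T1) u = T2 (T1 u) := rfl
  rw [e3, e4, h1, h2, h2, h1]
  ring

/-- elements preserving the lattice up to scalars, isometries of the lattice -/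
def DD (Q : QuadraticForm F V) (Q0 : QuadraticForm F0 (Fin n → F0)) (φ : F0 →+* F) (b : Module.Basis (Fin n) F V) :
    Subgroup ↥(E Q) where
  carrier := {s | ∃ (a : F) (T : (Fin n → F0) ≃ₗ[F0] (Fin n → F0)), a ≠ 0 ∧ T ∈ O Q0 ∧
    ∀ v, (s : V ≃ₗ[F] V) (semJ φ b v) = a • semJ φ b (T v)}
  one_mem' := ⟨1, 1, one_ne_zero, one_mem _, fun v => by rw [one_smul]; rfl⟩
  mul_mem' := by
    rintro s t ⟨a, T, ha, hT, h⟩ ⟨a', T', ha', hT', h'⟩
    refine ⟨a * a', T * T', mul_ne_zero ha ha', mul_mem hT hT', fun v => ?_⟩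
    change (s : V ≃ₗ[F] V) ((t : V ≃ₗ[F] V) (semJ φ b v)) = _
    rw [h', map_smul, h, smul_smul, mul_comm]
    rfl
  inv_mem' := by
    rintro s ⟨a, T, ha, hT, h⟩
    refine ⟨a⁻¹, T⁻¹, inv_ne_zero ha, inv_mem hT, fun v => ?_⟩
    obtain ⟨u, rfl⟩ := T.surjective v
    have e1 : semJ φ b (T u) = a⁻¹ • (s : V ≃ₗ[F] V) (semJ φ b u) := by
      rw [h, smul_smul, inv_mul_cancel₀ ha, one_smul]
    have e2 : ∀ x, ((s⁻¹ : ↥(E Q)) : V ≃ₗ[F] V) ((s : V ≃ₗ[F] V) x) = x := fun x =>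
      (s : V ≃ₗ[F] V).symm_apply_apply x
    have e3 : (T⁻¹ : (Fin n → F0) ≃ₗ[F0] (Fin n → F0)) (T u) = u := T.symm_apply_apply u
    rw [e3, e1, map_smul, e2]

theorem comm_DD (hG0 : Good Q0) (hd : d ≠ 0) (hQ : ∀ v, Q (semJ φ b v) = d * φ (Q0 v)) :
    ⁅DD Q Q0 φ b, DD Q Q0 φ b⁆ ≤ (psiE hd hQ).range := by
  rw [Subgroup.commutator_le]
  rintro s ⟨a, T, ha, hT, h⟩ t ⟨a', T', ha', hT', h'⟩
  have h1 : ⁅T, T'⁆ ∈ E Q0 := by
    rw [← hG0.commutator_eq_E]
    exact Subgroup.commutator_mem_commutator hT hT'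
  refine ⟨⟨⁅T, T'⁆, h1⟩, ?_⟩
  apply Subtype.ext
  refine equiv_ext φ b fun v => ?_
  rw [psiE_semJ, comm_J ha ha' h h']

end comm

section main

variable {F F0 V G Ω ι : Type} [Field F] [Finite F] [Field F0] [AddCommGroup V] [Module F V]
  [FiniteDimensional F V] {Q : QuadraticForm F V} [Group G] [Finite G] [MulAction G Ω] [Nonempty Ω]
  {N : Subgroup G} {σ : P Q →* G}

/-- **The box, after the descent.** -/
theorem box_of_descent (hG : Good Q) (h7 : 7 ≤ Module.finrank F V) (hE : Env G Ω N) (hσ : Rp Q N σ)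
    (hIH : IH (Nat.card (P Q))) [Finite ι] {x : ι → G} {r : ι → ℕ} (hx : PF x r) (hcov : Cov Ω x) {i₁ : ι}
    (h3 : r i₁ = 3) {α : MulAut (P Q)} (hα : La σ (x i₁) α) (hα' : α ∉ (Psi Q).range) {M : ι → Gam Q}
    (hl : ∀ i, i ≠ i₁ → Lf (up σ) (x i) (M i))
    {n : ℕ} {φ : F0 →+* F} {b : Module.Basis (Fin n) F V}
    {Q0 : QuadraticForm F0 (Fin n → F0)} {d : F} (hd : d ≠ 0) (hQ : ∀ v, Q (semJ φ b v) = d * φ (Q0 v))
    (hnl : ∀ i, i ≠ i₁ → ¬ IsLin (M i) → ∃ s : F, s ≠ 0 ∧ ∀ v, (M i).1 (semJ φ b v) = s • semJ φ b v)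
    (hlin : ∀ (z : G) (Z : Gam Q), Lf (up σ) z Z → IsLin Z →
      (∀ i, i ≠ i₁ → ¬ IsLin (M i) → z * x i = x i * z) →
      ∃ (s : F) (T : (Fin n → F0) ≃ₗ[F0] (Fin n → F0)), s ≠ 0 ∧ ∀ v, Z.1 (semJ φ b v) = s • semJ φ b (T v))
    (hex : ∃ i, i ≠ i₁ ∧ ¬ IsLin (M i)) : False := by
  classical
  have hρ : Rep Q N (up σ) := hσ.rep
  set ρ := up σ with hρdef
  have hfV : Finite V := Module.finite_of_finite F
  have hf0 : Finite F0 := Finite.of_injective φ φ.injective
  have hG0 : Good Q0 := good0 hG hQ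
  have hn : 7 ≤ Module.finrank F0 (Fin n → F0) := by
    rw [Module.finrank_fin_fun]
    rwa [Module.finrank_eq_card_basis b, Fintype.card_fin] at h7
  have hnt : Nontrivial V := Module.nontrivial_of_finrank_pos (R := F) (by omega)
  -- the similitudes `T i`
  have hT : ∀ i, ∃ (s : F) (T : Gam Q0), i ≠ i₁ → s ≠ 0 ∧ (∀ v, (M i).1 (semJ φ b v) = s • semJ φ b (T.1 v)) ∧
      (¬ IsLin (M i) → T = 1) := by
    intro i
    by_cases hi1 : i = i₁
    · exact ⟨0, 1, fun h => absurd hi1 h⟩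
    by_cases hi : IsLin (M i)
    · obtain ⟨s, T, hs, hT⟩ := hlin (x i) (M i) (hl i hi1) hi fun j _ _ => hx.comm i j
      obtain ⟨T', hT'⟩ := exists_T hG0.exists_hyp hd hQ hi hs hT
      exact ⟨s, T', fun _ => ⟨hs, fun v => by rw [hT, hT'], fun h => absurd hi h⟩⟩
    · obtain ⟨s, hs, h⟩ := hnl i hi1 hi
      exact ⟨s, 1, fun _ => ⟨hs, h, fun _ => rfl⟩⟩
  choose s T hT using hT
  let θ : ↥(E Q0) →* G := ρ.comp (psiE hd hQ)
  have hθ : ∀ g, θ g = ρ (psiE hd hQ g) := fun g => rfl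
  have hker : θ.ker ≤ Subgroup.center ↥(E Q0) := by
    intro g hg
    apply mem_center_of_psiE hd hQ
    rw [← hρ.ker, MonoidHom.mem_ker]
    exact hg
  have hconj : ∀ i, i ≠ i₁ → ∀ g, x i * θ g * (x i)⁻¹ = θ (conjE Q0 (T i) g) := by
    intro i hi g
    rw [hθ, hl i hi, conjE_psiE hd hQ (hT i hi).1 (hT i hi).2.1]
    rfl
  have hcentn : ∀ i, i ≠ i₁ → ¬ IsLin (M i) → ∀ m ∈ θ.range, x i * m = m * x i := by
    rintro i hi1 hi _ ⟨g, rfl⟩
    have h1 := hconj i hi1 g
    rw [(hT i hi1).2.2 hi, map_one, MulAut.one_apply] at h1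
    exact mul_inv_eq_iff_eq_mul.1 h1
  have hcentl : ∀ i, i ≠ i₁ → (∀ m ∈ θ.range, x i * m = m * x i) → ¬ IsLin (M i) := by
    intro i hi1 hi hlin'
    have h1 : ∀ g, θ (conjE Q0 (T i) g) = θ g := by
      intro g
      rw [← hconj i hi1, hi _ ⟨g, rfl⟩, mul_inv_cancel_right]
    have h2 : Psi Q0 (T i) = 1 := by
      ext t
      obtain ⟨t, rfl⟩ := QuotientGroup.mk_surjective t
      rw [Psi_mk]
      show (QuotientGroup.mk (conjE Q0 (T i) t) : P Q0) = QuotientGroup.mk t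
      rw [eq_comm, QuotientGroup.eq]
      apply hker
      rw [MonoidHom.mem_ker, map_mul, map_inv, h1]
      group
    have h3 : conjE Q0 (T i) = 1 := eq_one_of_quotAut (commutator_E hG0) _ h2
    obtain ⟨a, ha, h4⟩ := exists_scalar_of_conjE hG0 (T i) h3
    have h5 : IsScal (M i) := by
      refine ⟨s i * φ a, mul_ne_zero (hT i hi1).1 ((map_ne_zero φ).2 ha), fun v => ?_⟩
      let f : V →ₗ[F] V :=
        { toFun := (M i).1
          map_add' := add_of_mem (M i).2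
          map_smul' := hlin' }
      have h6 : f = (s i * φ a) • LinearMap.id := by
        refine lin_ext φ b fun v => ?_
        show (M i).1 (semJ φ b v) = (s i * φ a) • semJ φ b v
        rw [(hT i hi1).2.1, h4, semJ_smul, smul_smul]
      exact LinearMap.congr_fun h6 v
    exact hx.ne i ((hl i hi1).eq_one_iff hG hE hρ |>.2 h5)
  -- the group `MM`
  have hMN : θ.range ≤ N := by
    rintro _ ⟨g, rfl⟩
    rw [← hρ.range]
    exact ⟨_, rfl⟩
  have hMne : θ.range ≠ N := by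
    intro h
    obtain ⟨i, hi1, hi⟩ := hex
    apply hx.ne i
    have h1 : x i ∈ Subgroup.centralizer (N : Set G) := by
      rw [Subgroup.mem_centralizer_iff]
      intro m hm
      exact (hcentn i hi1 hi m (by rw [h]; exact hm)).symm
    rw [hE.cent] at h1
    exact Subgroup.mem_bot.1 h1
  have hperf : ⁅θ.range, θ.range⁆ = θ.range := by
    have h1 : commutator ↥(E Q0) = ⊤ := commutator_E hG0
    rw [commutator_def] at h1
    rw [MonoidHom.range_eq_map θ, ← Subgroup.map_commutator, h1]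
  -- `x i₁` does not centralise `θ.range`
  have hcent1 : ¬ ∀ m ∈ θ.range, x i₁ * m = m * x i₁ := by
    intro h
    refine not_fix_lattice hG h7 hα' hd hQ fun g => ?_
    apply hσ.inj
    rw [← hα]
    have h1 := h _ ⟨g, rfl⟩
    rw [hθ] at h1
    exact mul_inv_eq_iff_eq_mul.2 h1
  -- the characterisation of `θ.range`
  let C : Subgroup G := N ⊓ Subgroup.centralizer {z | ∃ i, i ≠ i₁ ∧ ¬ IsLin (M i) ∧ z = x i}
  have hCmem : ∀ z, z ∈ C ↔ z ∈ N ∧ ∀ i, i ≠ i₁ → ¬ IsLin (M i) → z * x i = x i * z := by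
    intro z
    change z ∈ N ∧ z ∈ Subgroup.centralizer _ ↔ _
    rw [Subgroup.mem_centralizer_iff]
    constructor
    · rintro ⟨h1, h2⟩
      exact ⟨h1, fun i hi hi' => (h2 _ ⟨i, hi, hi', rfl⟩).symm⟩
    · rintro ⟨h1, h2⟩
      refine ⟨h1, ?_⟩
      rintro _ ⟨i, hi, hi', rfl⟩
      exact (h2 i hi hi').symm
  have hθC : θ.range ≤ C := by
    intro m hm
    rw [hCmem]
    exact ⟨hMN hm, fun i hi hi' => (hcentn i hi hi' m hm).symm⟩
  have hCs : ∀ z ∈ C, ∃ (t : ↥(E Q)) (a : F) (T : (Fin n → F0) ≃ₗ[F0] (Fin n → F0)) (c : F0), ρ t = z ∧ a ≠ 0 ∧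
      (∀ v, Q0 (T v) = c * Q0 v) ∧ ∀ v, (t : V ≃ₗ[F] V) (semJ φ b v) = a • semJ φ b (T v) := by
    intro z hz
    rw [hCmem] at hz
    have hz1 := hz.1
    rw [← hρ.range] at hz1
    obtain ⟨t, rfl⟩ := hz1
    have htl : IsLin (tg Q t) := fun a v => map_smul (t : V ≃ₗ[F] V) a v
    obtain ⟨a, T, ha, hT⟩ := hlin (ρ t) (tg Q t) (Lf.tg t) htl hz.2
    obtain ⟨T', hT'⟩ := exists_T hG0.exists_hyp hd hQ htl ha hT
    obtain ⟨τ, c, hS⟩ := T'.2
    have hτ : τ = 1 := H188.RC.ss_one_of_isLin hG0 (M := T') (fun k v => by rw [hT', hT', map_smul]) hS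
    subst hτ
    exact ⟨t, a, T, c, rfl, ha, fun v => by rw [← hT']; exact hS.form v, hT⟩
  have hchar : ⁅⁅C, C⁆, ⁅C, C⁆⁆ = θ.range := by
    apply le_antisymm
    · have h1 : ⁅C, C⁆ ≤ (DD Q Q0 φ b).map ρ := by
        rw [Subgroup.commutator_le]
        intro z1 hz1 z2 hz2
        obtain ⟨t1, a1, T1, c1, rfl, ha1, hc1, h1⟩ := hCs z1 hz1
        obtain ⟨t2, a2, T2, c2, rfl, ha2, hc2, h2⟩ := hCs z2 hz2
        refine ⟨⁅t1, t2⁆, ⟨1, ⁅T1, T2⁆, one_ne_zero, comm_mem_O hc1 hc2, fun v => ?_⟩, map_commutatorElement ρ t1 t2⟩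
        rw [one_smul]
        exact comm_J ha1 ha2 h1 h2 v
      refine (Subgroup.commutator_mono h1 h1).trans ?_
      rw [← Subgroup.map_commutator]
      refine (Subgroup.map_mono (comm_DD hG0 hd hQ)).trans ?_
      rintro _ ⟨_, ⟨g, rfl⟩, rfl⟩
      exact ⟨g, rfl⟩
    · have h1 : θ.range ≤ ⁅C, C⁆ := by
        rw [← hperf]
        exact Subgroup.commutator_mono hθC hθC
      rw [← hperf]
      exact Subgroup.commutator_mono h1 h1
  have hC1 : ∀ z ∈ C, x i₁ * z * (x i₁)⁻¹ ∈ C := by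
    intro z hz
    rw [hCmem] at hz ⊢
    refine ⟨hE.norm.conj_mem z hz.1 _, fun i hi hi' => ?_⟩
    have e1 := hz.2 i hi hi'
    have e2 := hx.comm i₁ i
    have e3 : (x i₁)⁻¹ * x i = x i * (x i₁)⁻¹ := by
      rw [inv_mul_eq_iff_eq_mul, ← mul_assoc, e2, mul_inv_cancel_right]
    calc x i₁ * z * (x i₁)⁻¹ * x i = x i₁ * z * ((x i₁)⁻¹ * x i) := by group
      _ = x i₁ * (z * x i) * (x i₁)⁻¹ := by rw [e3]; group
      _ = (x i₁ * x i) * z * (x i₁)⁻¹ := by rw [e1]; group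
      _ = x i * (x i₁ * z * (x i₁)⁻¹) := by rw [e2]; group
  have hC2 : C.map (MulAut.conj (x i₁)).toMonoidHom = C := by
    apply Subgroup.eq_of_le_of_card_ge
    · rintro _ ⟨z, hz, rfl⟩
      exact hC1 z hz
    · rw [Nat.card_congr (C.equivMapOfInjective (MulAut.conj (x i₁)).toMonoidHom (MulAut.conj (x i₁)).injective).toEquiv]
  have hθ1 : θ.range.map (MulAut.conj (x i₁)).toMonoidHom = θ.range := by
    rw [← hchar, Subgroup.map_commutator, Subgroup.map_commutator, hC2]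
  have hnorm : ∀ i, x i ∈ Subgroup.normalizer ((θ.range : Subgroup G) : Set G) := by
    intro i
    by_cases hi1 : i = i₁
    · subst hi1
      rw [Subgroup.mem_normalizer_iff]
      intro m
      constructor
      · intro hm
        rw [← hθ1]
        exact ⟨m, hm, rfl⟩
      · intro hm
        rw [← hθ1] at hm
        obtain ⟨m', hm', h⟩ := hm
        have h1 : m' = m := (MulAut.conj (x i)).injective h
        rw [← h1]
        exact hm'
    rw [Subgroup.mem_normalizer_iff]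
    intro m
    constructor
    · rintro ⟨g, rfl⟩
      exact ⟨_, (hconj i hi1 g).symm⟩
    · rintro ⟨g, hg⟩
      refine ⟨(conjE Q0 (T i))⁻¹ g, ?_⟩
      have h2 := hconj i hi1 ((conjE Q0 (T i))⁻¹ g)
      rw [MulAut.apply_inv_self] at h2
      exact mul_left_cancel (mul_right_cancel (h2.trans hg))
  let πL : ↥(E Q0) ⧸ θ.ker →* P Q0 :=
    QuotientGroup.lift θ.ker (QuotientGroup.mk' (Subgroup.center ↥(E Q0))) (fun g hg =>
      (QuotientGroup.eq_one_iff g).2 (hker hg))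
  let π : ↥θ.range →* P Q0 := πL.comp (QuotientGroup.quotientKerEquivRange θ).symm.toMonoidHom
  have hπθ : ∀ g, π ⟨θ g, ⟨g, rfl⟩⟩ = QuotientGroup.mk g := by
    intro g
    have h1 : (QuotientGroup.quotientKerEquivRange θ).symm ⟨θ g, ⟨g, rfl⟩⟩ = QuotientGroup.mk g := by
      rw [MulEquiv.symm_apply_eq]
      rfl
    show πL ((QuotientGroup.quotientKerEquivRange θ).symm ⟨θ g, ⟨g, rfl⟩⟩) = _
    rw [h1]
    rfl
  have hπs : Function.Surjective π := by
    intro y
    obtain ⟨g, rfl⟩ := QuotientGroup.mk_surjective y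
    exact ⟨_, hπθ g⟩
  have hπk : π.ker ≤ Subgroup.center ↥θ.range := by
    rintro ⟨_, g, rfl⟩ hm
    rw [MonoidHom.mem_ker, hπθ] at hm
    have h1 : g ∈ Subgroup.center ↥(E Q0) := (QuotientGroup.eq_one_iff g).1 hm
    rw [Subgroup.mem_center_iff]
    rintro ⟨_, k, rfl⟩
    apply Subtype.ext
    show θ k * θ g = θ g * θ k
    rw [← map_mul, ← map_mul, Subgroup.mem_center_iff.1 h1 k]
  have hfP := finite_P (Q := Q0)
  have hfP' : Finite (P Q) := finite_P
  obtain ⟨hs1, hs2, hs3, hs4⟩ := box_id hG0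
  have hs4' : ¬ Exc (P Q0) := by
    rcases hs4 with ⟨-, h, -⟩ | h
    · omega
    · exact h
  obtain ⟨e⟩ := exists_equiv_P hρ
  have hrule := mrule_IH hIH e hMN hMne hperf π hπs hπk hs1 hs2 hs3 hs4' hx hcov hnorm
  -- the element of order three
  obtain ⟨g, hg3, hgs⟩ := exists_three hG0
  have hgc : ρ (psiE hd hQ g) ≠ 1 := by
    intro h
    have h1 : psiE hd hQ g ∈ Subgroup.center ↥(E Q) := by rw [← hρ.ker, MonoidHom.mem_ker]; exact h
    obtain ⟨a, -, ha⟩ := H188.RC.scal_of_center hG0 (mem_center_of_psiE hd hQ h1)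
    exact hgs ⟨a, ha⟩
  -- the new cover
  let J := {i : ι // i ≠ i₁ ∧ ¬ IsLin (M i)}
  let x' : Option J → G := fun o => o.elim (ρ (psiE hd hQ g)) fun i => x i
  let M' : Option J → Gam Q := fun o => o.elim (tg Q (psiE hd hQ g)) fun i => M i
  let r' : Option J → ℕ := fun o => o.elim 3 fun i => r i
  obtain ⟨j0, hj0, hj0'⟩ := hex
  refine box_FA' (x := x') (M := M') (r := r') hG h7 hE hρ ?_ ⟨?_, ?_, ?_, ?_, ?_⟩ ?_ hIH ⟨some ⟨j0, hj0, hj0'⟩, hj0'⟩
  · rintro (_ | i)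
    · exact Lf.tg _
    · exact hl i i.2.1
  · rintro (_ | i)
    · exact Nat.prime_three
    · exact hx.prime i
  · rintro (_ | i) (_ | j) hij
    · rfl
    · exact absurd (hx.inj (h3.trans hij)) (Ne.symm j.2.1)
    · exact absurd (hx.inj (h3.trans hij.symm)) (Ne.symm i.2.1)
    · exact congrArg some (Subtype.ext (hx.inj hij))
  · rintro (_ | i)
    · show ρ (psiE hd hQ g) ^ 3 = 1
      rw [← map_pow, ← map_pow, hg3, map_one, map_one]
    · exact hx.pow i
  · rintro (_ | i)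
    · exact hgc
    · exact hx.ne i
  · rintro (_ | i) (_ | j)
    · rfl
    · exact (hcentn j j.2.1 j.2.2 _ ⟨g, rfl⟩).symm
    · exact hcentn i i.2.1 i.2.2 _ ⟨g, rfl⟩
    · exact hx.comm i j
  · intro ω
    rcases hrule ω with h | ⟨j, hj, hjω⟩
    · exact ⟨none, h ⟨g, rfl⟩⟩
    · have hj1 : j ≠ i₁ := by
        rintro rfl
        exact hcent1 hj
      exact ⟨some ⟨j, hj1, hcentl j hj1 hj⟩, hjω⟩

end main

section final

/-- **A cover with a non-geometric member of order three and a nonlinear member does not exist** (all orthogonal groups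
in dimension at least seven). -/
theorem box_gen {F V G Ω ι : Type} [Field F] [Finite F] [AddCommGroup V] [Module F V]
    [FiniteDimensional F V] {Q : QuadraticForm F V} [Group G] [Finite G] [MulAction G Ω] [Nonempty Ω]
    {N : Subgroup G} {σ : P Q →* G} (hG : Good Q) (h7 : 7 ≤ Module.finrank F V) (hE : Env G Ω N) (hσ : Rp Q N σ)
    (hIH : IH (Nat.card (P Q))) [Finite ι] {x : ι → G} {r : ι → ℕ} (hx : PF x r) (hcov : Cov Ω x) {i₁ : ι}
    (h3 : r i₁ = 3) {α : MulAut (P Q)} (hα : La σ (x i₁) α) (hα' : α ∉ (Psi Q).range) {M : ι → Gam Q}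
    (hl : ∀ i, i ≠ i₁ → Lf (up σ) (x i) (M i)) (hex : ∃ i, i ≠ i₁ ∧ ¬ IsLin (M i)) : False := by
  obtain ⟨i0, hi0, hi0'⟩ := hex
  obtain ⟨K, b, Q0, d, -, hd, hQ, hnl, hlin⟩ := exists_descent (x := fun i : {i : ι // i ≠ i₁} => x i)
    (M := fun i : {i : ι // i ≠ i₁} => M i) (r := fun i : {i : ι // i ≠ i₁} => r i) hG hσ.rep
    (fun i => hl i i.2) ⟨fun i => hx.prime i, fun i j h => Subtype.ext (hx.inj h), fun i => hx.pow i,
      fun i => hx.ne i, fun i j => hx.comm i j⟩ ⟨⟨i0, hi0⟩, hi0'⟩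
  exact box_of_descent hG h7 hE hσ hIH hx hcov h3 hα hα' hl hd hQ (fun i hi h => hnl ⟨i, hi⟩ h)
    (fun z Z hz hZ h => hlin z Z hz hZ fun i hi => h i i.2 hi) ⟨i0, hi0, hi0'⟩

open Cfsg.Agent.LieClassical.QuadForms Cfsg.Agent.ClassicalGeometry.TrialityOct
  Cfsg.Agent.ClassicalGeometry.Triality Cfsg.Agent.ClassicalGeometry.TrialitySpaces Cfsg.Agent.H198.TriBase
  Cfsg.Agent.H198.TriAut Cfsg.Agent.H206.Balance

/-- **Case 0 of the triality part**: a field automorphism in the cover, all types of triality elements. -/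
theorem box_field {F G Ω ι : Type} [Field F] [Finite F] [Group G] [Finite G] [MulAction G Ω] [Nonempty Ω]
    {N : Subgroup G} {σ : P8 F →* G} (hG : Good (plusForm 4 F)) (hE : Env G Ω N) (hσ : Rp (plusForm 4 F) N σ)
    [Finite ι] {x : ι → G} {r : ι → ℕ} (hx : PF x r) (hcov : Cov Ω x) (hIH : IH (Nat.card (P (plusForm 4 F))))
    {i₁ : ι} (h3 : r i₁ = 3) {α : MulAut (P8 F)} (hα : La σ (x i₁) α) (hα' : α ∉ (Psi (plusForm 4 F)).range)
    {M : ι → G8 F} (hl : ∀ i, i ≠ i₁ → Lf (up σ) (x i) (M i)) (hne : ∃ i, i ≠ i₁ ∧ ¬ IsLin (M i)) : False :=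
  box_gen hG (by simp) hE hσ hIH hx hcov h3 hα hα' hl hne

theorem lin_iff {F : Type} [Field F] (hG : Good (plusForm 4 F)) {M : G8 F} (h : IsLin M) : H198.TriDia.IsLin M := by
  obtain ⟨τ, c, hS⟩ := M.2
  have hτ : τ = 1 := H188.RC.ss_one_of_isLin hG h hS
  subst hτ
  exact ⟨c, hS⟩

/-- the order of the triality member -/
theorem r_eq_three {F G Ω : Type} [Field F] [Group G] [MulAction G Ω] {N : Subgroup G} {κ : P8 F →* G}
    (hG : Good (plusForm 4 F)) (hE : Env G Ω N) (hκ : Rp (plusForm 4 F) N κ) {x : G} {r : ℕ} (hr : r.Prime)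
    (hxr : x ^ r = 1) (hx1 : x ≠ 1) {τ : G8 F} (hτ : TriS τ τ τ) (h3 : τ ^ 3 = 1)
    (h1 : La κ x (H198.TriDia.xt hG τ)) : r = 3 := by
  have h2 := h1.pow 3
  rw [H198.TriDia.xt_pow_three hG hτ h3] at h2
  have h4 : x ^ 3 = 1 := h2.eq hE hκ La.one
  have h5 : orderOf x ∣ 3 := orderOf_dvd_of_pow_eq_one h4
  have h6 : orderOf x = r := by
    have := Fact.mk hr
    exact orderOf_eq_prime hxr hx1
  rw [h6] at h5
  exact (Nat.prime_dvd_prime_iff_eq hr Nat.prime_three).1 h5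

/-- **Case 0** in the form of the stubs of helper864. -/
theorem dead_field {F G Ω ι : Type} [Field F] [Finite F] [Group G] [MulAction G Ω] {N : Subgroup G} {κ : P8 F →* G}
    {x : ι → G} {r : ι → ℕ} [Finite G] [Finite ι] [Nonempty Ω] (hG : Good (plusForm 4 F))
    (hE : Env G Ω N) (hκ : Rp (plusForm 4 F) N κ) (hIH : IH (Nat.card N)) (hx : PF x r)
    (hcov : Cov Ω x) (i₁ : ι) {τ : G8 F} (hτ : TriS τ τ τ) (h3 : τ ^ 3 = 1) (h1 : La κ (x i₁) (H198.TriDia.xt hG τ))
    (hT : ∀ j, j ≠ i₁ → ∃ M ∈ T1 F, Lf (up κ) (x j) M) (j : ι) (hj : j ≠ i₁) {M : G8 F}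
    (hM : Lf (up κ) (x j) M) (hnl : ¬ H198.TriDia.IsLin M) : False := by
  classical
  have hT' : ∀ i, ∃ M : G8 F, i ≠ i₁ → Lf (up κ) (x i) M := by
    intro i
    by_cases hi : i = i₁
    · exact ⟨1, fun h => absurd hi h⟩
    · obtain ⟨M, -, h⟩ := hT i hi
      exact ⟨M, fun _ => h⟩
  choose M' hM' using hT'
  have hcard : Nat.card (P (plusForm 4 F)) = Nat.card N := by
    obtain ⟨e⟩ := exists_equiv_P hκ.rep
    exact (Nat.card_congr e.toEquiv).symm
  refine box_field (M := Function.update M' j M) hG hE hκ hx hcov (by rw [hcard]; exact hIH)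
    (r_eq_three hG hE hκ (hx.prime i₁) (hx.pow i₁) (hx.ne i₁) hτ h3 h1) h1 (H198.TriDia.xt_not_mem hG τ) ?_
    ⟨j, hj, ?_⟩
  · intro i hi
    by_cases h : i = j
    · subst h
      rw [Function.update_self]
      exact hM
    · rw [Function.update_of_ne h]
      exact hM' i hi
  · rw [Function.update_self]
    exact fun h => hnl (lin_iff hG h)

end final

end Cfsg.Agent.H679.RC.TriField
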